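import Cfsg.Agent.H42.PcDefs

/-! Project PC, piece KEY. -/

set_option autoImplicit false

namespace Cfsg.Agent.H41.PcKey

open Subgroup Cfsg.Agent.H42.Pc

universe u

theorem aux {G : Type u} [Group G] [Finite G] (h : PP G) (N : Subgroup G) [N.Normal] {p : ℕ}
    (hp : p.Prime) {y y' : G} {m d : ℕ} (hy : orderOf y = p ^ m)
    (hy' : orderOf y' = p ^ (m + (d + 1))) (hN : y' ∉ N)
    (e : orderOf (y : G ⧸ N) = orderOf (y' : G ⧸ N)) : False := by
  have := Fact.mk hp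
  have o1 : orderOf (y' ^ p ^ (d + 1)) = p ^ m := by
    rw [orderOf_pow' _ (pow_ne_zero _ hp.ne_zero), hy',
      Nat.gcd_eq_right (pow_dvd_pow p (Nat.le_add_left _ _)), pow_add,
      Nat.mul_div_cancel _ (pow_pos hp.pos _)]
  obtain ⟨g, hg⟩ := h p hp (zpowers y) (zpowers (y' ^ p ^ (d + 1))) inferInstance inferInstance
    (IsPGroup.of_card (by rw [Nat.card_zpowers, hy])) (by
      rw [Nat.card_zpowers, Nat.card_zpowers, hy, o1])
  have h1 : orderOf ((y' : G ⧸ N) ^ p ^ (d + 1)) = orderOf (y : G ⧸ N) := by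
    have a := congrArg (fun K => Nat.card (Subgroup.map (QuotientGroup.mk' N) K)) hg
    simp only [MonoidHom.map_zpowers, Nat.card_zpowers] at a
    rw [map_pow] at a
    refine a.trans ?_
    simpa using (MulAut.conj (g : G ⧸ N)).orderOf_eq (y : G ⧸ N)
  have h2 : orderOf (y' : G ⧸ N) ∣ p ^ (m + (d + 1)) :=
    hy' ▸ orderOf_map_dvd (QuotientGroup.mk' N) y'
  obtain ⟨j, -, hj⟩ := (Nat.dvd_prime_pow hp).1 h2
  have h3 : j ≠ 0 := by
    rintro rfl
    rw [pow_zero, orderOf_eq_one_iff, QuotientGroup.eq_one_iff] at hj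
    exact hN hj
  rw [e, orderOf_pow' _ (pow_ne_zero _ hp.ne_zero), hj] at h1
  have h4 : p ∣ Nat.gcd (p ^ j) (p ^ (d + 1)) :=
    Nat.dvd_gcd (dvd_pow_self p h3) (dvd_pow_self p (Nat.succ_ne_zero d))
  have h5 : 1 < Nat.gcd (p ^ j) (p ^ (d + 1)) :=
    hp.one_lt.trans_le (Nat.le_of_dvd (Nat.gcd_pos_of_pos_left _ (pow_pos hp.pos _)) h4)
  exact (Nat.div_lt_self (pow_pos hp.pos _) h5).ne h1

theorem key : KeyStmt.{u} := by
  intro G _ _ h N _ p hp y y' ⟨k, hk⟩ ⟨k', hk'⟩ hN hN' e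
  obtain ⟨m, -, hm⟩ := (Nat.dvd_prime_pow hp).1 (orderOf_dvd_of_pow_eq_one hk)
  obtain ⟨m', -, hm'⟩ := (Nat.dvd_prime_pow hp).1 (orderOf_dvd_of_pow_eq_one hk')
  rcases lt_trichotomy m m' with l | l | l
  · obtain ⟨d, rfl⟩ := Nat.exists_eq_add_of_lt l
    exact (aux h N hp hm (d := d) hm' hN' e).elim
  · rw [hm, hm', l]
  · obtain ⟨d, rfl⟩ := Nat.exists_eq_add_of_lt l
    exact (aux h N hp hm' (d := d) hm hN e.symm).elim

end Cfsg.Agent.H41.PcKey
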