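import Mathlib
import Cfsg.Agent.H41.StC
import Cfsg.Agent.H99.F22I

/-!
# A standard subgroup `2·U₆(2)`: the statements of the pieces

Paper proofs: `stubs/notes/h41_u6.md`.
-/

set_option autoImplicit false

universe u

namespace Cfsg.Agent.H41.U6S

open Cfsg.Agent.H41.Rec Cfsg.Agent.H42 Cfsg.Agent.H45 Cfsg.Agent.H60 Equiv

/-- `Q` is the centraliser of `d` in `G`, normalises the double cover `N` and acts on the points
through `ρ`; the kernel of `ρ` is tightly embedded. -/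
structure Gu {Q G : Type u} [Group Q] [Group G] (ι : Q →* G) (ρ : Q →* Perm (Fin 693))
    (N : Subgroup Q) (d : Q) : Prop where
  aut : ∀ g, ρ g ∈ L21.F.aut
  nor : ∀ g, ∀ a ∈ N, g * a * g⁻¹ ∈ N
  dN : d ∈ N
  dc : ∀ g, g * d = d * g
  ne : d ≠ 1
  ker : ∀ a ∈ N, ρ a = 1 ↔ a = 1 ∨ a = d
  rng : N.map ρ = L21.F.grp
  perf : Group.IsPerfect N
  inj : Function.Injective ι
  cen : ∀ g, Commute (ι d) g → g ∈ ι.range
  te : ∀ k k', ρ k = 1 → ρ k' = 1 → k * k = 1 → k ≠ 1 → ∀ g, g * ι k * g⁻¹ = ι k' → g ∈ ι.range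

/-- quantification over all the data -/
def AllU (P : ∀ {Q G : Type u} [Group Q] [Group G], (Q →* G) → (Q →* Perm (Fin 693)) →
    Subgroup Q → Q → Prop) : Prop :=
  ∀ (Q G : Type u) [Group Q] [Finite Q] [Group G] [Finite G] (ι : Q →* G)
    (ρ : Q →* Perm (Fin 693)) (N : Subgroup Q) (d : Q), Gu ι ρ N d → P ι ρ N d

/-- only one coset of outer automorphisms is induced -/
def Two {Q : Type u} [Group Q] (ρ : Q →* Perm (Fin 693)) : Prop :=
  ∀ x y, ρ x ∉ L21.F.grp → ρ y ∉ L21.F.grp → ρ (x * y) ∈ L21.F.grp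

/-- a conjugate of `d` inducing an inner automorphism -/
def Inn {Q G : Type u} [Group Q] [Group G] (ι : Q →* G) (ρ : Q →* Perm (Fin 693)) (d : Q) : Prop :=
  ∃ g y, g * ι d * g⁻¹ = ι y ∧ y ≠ d ∧ ρ y ∈ L21.F.grp

/-- fixed points of centralisers on the group of the clique -/
def FixStmt : Prop :=
  ∀ (Q : Type u) [Group Q] [Finite Q] (ρ : Q →* Perm (Fin 693)) (d : Q), Ex L21.F ρ d →
    ∀ v ∈ AA L21.F (sB J21.B) 9 ρ, ∀ l ∈ AA L21.F (sB J21.B) 9 ρ,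
      (∀ g, Commute g v → Commute g l) → ρ v = 1 ∨ ρ l = 1 ∨ ρ l = ρ v

/-- an automorphism whose fourth power fixes no nonsplit sign pattern on the clique -/
def TauStmt : Prop := ∃ τ ∈ L21.F.aut, ∃ a W : ℕ,
  (∀ j < 21, fld 5 a j < 21 ∧ (τ ^ 4) (sB J21.B j) = sB J21.B (fld 5 a j)) ∧
  (∀ j < 21, fld 12 W j = 2 * fld 12 J21.V j) ∧
  allB (sgnB 9 21 J21.V W (a :: J21.sl.map Prod.snd)) (2 ^ (21 - 9)) = true

def TwoStmt : Prop := TauStmt → AllU.{u} fun _ ρ _ _ => Two ρ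

def InnStmt : Prop := AllU.{u} fun ι ρ _ d => Two ρ →
  (∃ g, Commute (ι d) (g * ι d * g⁻¹) ∧ g * ι d * g⁻¹ ≠ ι d) → Inn ι ρ d

def KerStmt : Prop := FixStmt.{u} → AllU.{u} fun {Q} _ _ _ ι ρ _ d => Inn ι ρ d →
  (∀ M : Subgroup Q, M.Normal → Odd (Nat.card M) → M = ⊥) → ∀ k, ρ k = 1 → k = 1 ∨ k = d

end Cfsg.Agent.H41.U6S
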