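import Cfsg.Agent.H45.IvDefs

/-! Project CY, chapter IV: elements of `R \ Z` are fixed point free. -/

set_option autoImplicit false

namespace Cfsg.Agent.H41.CyFpf

open Subgroup MulAction Cfsg.Agent.H11.Cy Cfsg.Agent.H45.Iv
open scoped commutatorElement

theorem fpf : FpfStmt := by
  intro fp0 G _ _ Ω _ _ p A h k ls x y hxy r hr nr w hw
  obtain ⟨la, -, lc, ld⟩ := ls x y hxy
  obtain ⟨a, ha, a1⟩ : ∃ a ∈ A x, a ≠ 1 := by
    by_contra! c
    have e : A x = ⊥ := eq_bot_iff.2 c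
    have := h.card x
    rw [e, card_bot] at this
    exact h.pp.one_lt.ne this
  obtain ⟨s, hs, hz⟩ := lc.surj a ha a1 r hr
  have ns : s ∉ Zl A x y := fun c => nr (by
    have e : ⁅a, s⁆ = 1 := commutatorElement_eq_one_iff_mul_comm.2 (c.2 a (mem_sup_left ha))
    rwa [e, mul_one, inv_mem_iff] at hz)
  obtain ⟨t, -, e⟩ := ld.full r hr nr _ (inv_mem hz)
  have rF : r ∈ Fl A x y := la.sup ▸ mem_sup_left hr
  have c := hz.2 r rF
  have e' : ⁅a, s⁆ = t * r * t⁻¹ := by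
    generalize ⁅a, s⁆ = g at e c
    rw [commutatorElement_def] at e
    calc g = r * (r⁻¹ * g) := by group
      _ = r⁻¹ * g * r := c
      _ = (r * t * r⁻¹ * t⁻¹)⁻¹ * r := by rw [e, inv_inv]
      _ = t * r * t⁻¹ := by group
  refine fp0 G Ω p A h k ls x y hxy a ha a1 s hs ns (t • w) ?_
  rw [e', mul_smul, mul_smul, inv_smul_smul, hw]

end Cfsg.Agent.H41.CyFpf
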