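import Cfsg.Agent.H93.L8Defs
import Cfsg.Agent.S0205
import Cfsg.Agent.H2.SchurZassenhaus
import Cfsg.Agent.H3.Cores

/-! Project CY, chapter L8: the subgroup generated by all involutions is simple. -/

set_option autoImplicit false

namespace Cfsg.Agent.H41.L8Simp

open Subgroup MulAction Cfsg.Agent.H11.Cy Cfsg.Agent.H93.L8
open scoped Pointwise

variable {G : Type} [Group G]

theorem ord_conj (g x : G) : orderOf (g * x * g⁻¹) = orderOf x :=
  (MulAut.conj g).orderOf_eq x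

/-- the subgroup generated by the involutions -/
def Mi (G : Type) [Group G] : Subgroup G := closure {s : G | orderOf s = 2}

theorem mem_mi {s : G} (hs : orderOf s = 2) : s ∈ Mi G := subset_closure hs

theorem mi_normal : (Mi G).Normal := by
  constructor
  intro n hn g
  induction hn using closure_induction with
  | mem x hx => exact mem_mi (by rw [ord_conj]; exact hx)
  | one => simp
  | mul x y _ _ hx hy =>
    have : g * (x * y) * g⁻¹ = (g * x * g⁻¹) * (g * y * g⁻¹) := by group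
    rw [this]; exact mul_mem hx hy
  | inv x _ hx =>
    have : g * x⁻¹ * g⁻¹ = (g * x * g⁻¹)⁻¹ := by group
    rw [this]; exact inv_mem hx

theorem F_le {F : Subgroup G} (hF : IsSimpleGroup F) (N : Subgroup G)
    (hn : ∀ f ∈ F, ∀ n ∈ N, f * n * f⁻¹ ∈ N) {s : G} (hs : s ∈ F) (hsN : s ∈ N) (h1 : s ≠ 1) :
    F ≤ N := by
  have hN : (N.subgroupOf F).Normal := ⟨fun n hn' g => hn g g.2 n hn'⟩
  rcases hF.eq_bot_or_eq_top_of_normal _ hN with h | h
  · exfalso
    have : (⟨s, hs⟩ : F) ∈ N.subgroupOf F := hsN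
    rw [h, mem_bot] at this
    exact h1 (congrArg Subtype.val this)
  · intro f hf
    have : (⟨f, hf⟩ : F) ∈ N.subgroupOf F := by rw [h]; trivial
    exact this

theorem not_solv [Finite G] (hs : ∀ N : Subgroup G, N.Normal → Group.IsSolvable N → N = ⊥)
    (M : Subgroup G) [M.Normal] (N : Subgroup M) [N.Normal] (h0 : N ≠ ⊥) :
    ¬ Group.IsSolvable N := by
  intro h
  obtain ⟨A, hA, hA0, -, -, p, hp, hAp⟩ := H2.exists_abelian_pgroup_normal_le N h0 h
  have := Fact.mk hp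
  have h1 : A ≤ Cfsg.pCore p M := H3.le_pCore hAp
  have h2 : IsPGroup p ((Cfsg.pCore p M).map M.subtype) := H3.map_pCore_isPGroup M
  have h3 : (Cfsg.pCore p M).map M.subtype = ⊥ := by
    refine hs _ (H3.map_pCore_normal M) ?_
    have := h2.isNilpotent
    infer_instance
  rw [map_eq_bot_iff_of_injective _ M.subtype_injective] at h3
  exact hA0 (le_bot_iff.1 (h3 ▸ h1))

theorem inv_mem_of_eight {M : Type} [Group M] [Finite M] (hP : ∀ Q : Sylow 2 M, Nat.card Q ≤ 8)
    (N : Subgroup M) [hN : N.Normal] (h8 : 2 ^ 3 ∣ Nat.card N) {u : M} (hu : orderOf u = 2) :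
    u ∈ N := by
  obtain ⟨R, hR⟩ := Sylow.exists_subgroup_card_pow_prime 2 h8
  have hc : Nat.card (R.map N.subtype) = 2 ^ 3 := by
    rw [card_map_of_injective N.subtype_injective, hR]
  obtain ⟨Q', hQ'⟩ := (IsPGroup.of_card hc).exists_le_sylow
  have e : R.map N.subtype = Q' := eq_of_le_of_card_ge hQ' (by rw [hc]; exact hP Q')
  have hQN : (Q' : Subgroup M) ≤ N := by rw [← e]; exact map_subtype_le R
  have hz : IsPGroup 2 (zpowers u) := IsPGroup.of_card (n := 1) (by rw [Nat.card_zpowers, hu]; rfl)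
  obtain ⟨Q, hQ⟩ := hz.exists_le_sylow
  obtain ⟨m, hm⟩ := exists_smul_eq M Q Q'
  have h1 : m * u * m⁻¹ ∈ (Q' : Subgroup M) := by
    rw [← hm]
    exact Subgroup.smul_mem_pointwise_smul u (MulAut.conj m) _ (hQ (mem_zpowers u))
  have h2 := hN.conj_mem _ (hQN h1) m⁻¹
  simpa [mul_assoc] using h2

theorem simp : SimpStmt := by
  intro G _ _ hs hc hP F hF
  have := mi_normal (G := G)
  have hM := mi_normal (G := G)
  obtain ⟨t0, ht0⟩ := exists_prime_orderOf_dvd_card' (G := F) 2 (by rw [hF.card]; norm_num)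
  have ht : orderOf (t0 : G) = 2 := by rw [Subgroup.orderOf_coe, ht0]
  have ht1 : (t0 : G) ≠ 1 := fun e => by rw [e, orderOf_one] at ht; omega
  have hFM : F ≤ Mi G :=
    F_le hF.simple _ (fun f _ n hn => hM.conj_mem n hn f) t0.2 (mem_mi ht) ht1
  have hPM : ∀ Q : Sylow 2 (Mi G), Nat.card Q ≤ 8 := fun Q => by
    obtain ⟨P, hQP⟩ := (Q.2.map (Mi G).subtype).exists_le_sylow
    have := card_le_of_le hQP
    rw [card_map_of_injective (Mi G).subtype_injective] at this
    exact this.trans (hP P)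
  refine ⟨Mi G, hM, ?_, hFM, fun s hs => mem_mi hs⟩
  have : Nontrivial (Mi G) := ⟨⟨⟨t0, mem_mi ht⟩, 1, fun e => ht1 (congrArg Subtype.val e)⟩⟩
  refine ⟨fun N hN => ?_⟩
  by_cases h0 : N = ⊥
  · exact Or.inl h0
  right
  have hns := not_solv hs (Mi G) N h0
  have hev : 2 ∣ Nat.card N := by
    by_contra k
    exact hns (Cfsg.Agent.S0205.result (Nat.odd_iff.2 (by omega)))
  obtain ⟨x, hx⟩ := exists_prime_orderOf_dvd_card' (G := N) 2 hev
  have hx2 : orderOf ((x : Mi G) : G) = 2 := by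
    rw [Subgroup.orderOf_coe, Subgroup.orderOf_coe, hx]
  obtain ⟨c, hcx⟩ := isConj_iff.1 (hc _ _ hx2 ht)
  have hFN : F ≤ (N.map (Mi G).subtype).map (MulAut.conj c).toMonoidHom := by
    refine F_le hF.simple _ ?_ t0.2 ⟨_, ⟨x, x.2, rfl⟩, hcx⟩ ht1
    rintro f hf _ ⟨_, ⟨n, hn, rfl⟩, rfl⟩
    have hf' : c⁻¹ * f * c⁻¹⁻¹ ∈ Mi G := hM.conj_mem f (hFM hf) c⁻¹
    refine ⟨_, ⟨_, hN.conj_mem n hn ⟨_, hf'⟩, rfl⟩, ?_⟩
    simp [mul_assoc]
  have h8 : 2 ^ 3 ∣ Nat.card N := by
    have := card_dvd_of_le hFN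
    rw [card_map_of_injective (MulAut.conj c).injective,
      card_map_of_injective (Mi G).subtype_injective, hF.card] at this
    exact Dvd.dvd.trans (by norm_num) this
  have hall : Mi G ≤ N.map (Mi G).subtype := by
    refine (closure_le _).2 fun u hu => ?_
    have hu' : orderOf (⟨u, mem_mi hu⟩ : Mi G) = 2 := by
      rw [← Subgroup.orderOf_coe]; exact hu
    exact ⟨_, inv_mem_of_eight hPM N h8 hu', rfl⟩
  refine eq_top_iff.2 fun m _ => ?_
  obtain ⟨n, hn, e⟩ := hall m.2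
  have : n = m := Subtype.ext e
  exact this ▸ hn

end Cfsg.Agent.H41.L8Simp
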