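import Mathlib
import Cfsg.Agent.S0126

/-!
# Finite subgroups of `GL₂` over a division ring of characteristic zero: the ring layer
-/

set_option autoImplicit false

namespace Cfsg.Agent.H41.Q2

open Matrix

/-- two by two matrices -/
abbrev M2 (D : Type*) := Matrix (Fin 2) (Fin 2) D

section Ring

variable {D : Type*} [DivisionRing D]

/-- normal form of a non-trivial idempotent -/
theorem nf {e : M2 D} (he : e * e = e) (h0 : e ≠ 0) (h1 : e ≠ 1) :
    ∃ P Q : M2 D, P * Q = 1 ∧ Q * P = 1 ∧ P * e * Q = !![1, 0; 0, 0] := by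
  obtain ⟨i, hi⟩ : ∃ i, e i ≠ 0 := by
    by_contra h
    push Not at h
    exact h0 (Matrix.ext fun i j => congrFun (h i) j)
  obtain ⟨j, hj⟩ : ∃ j, (1 - e) j ≠ 0 := by
    by_contra h
    push Not at h
    exact h1 (sub_eq_zero.1 (Matrix.ext fun i j => congrFun (h i) j)).symm
  have hu : e i ᵥ* e = e i := by
    funext k
    have := congrFun (congrFun he i) k
    simpa [Matrix.mul_apply, vecMul, dotProduct] using this
  have hv : (1 - e) j ᵥ* e = 0 := by
    have h : (1 - e) * e = 0 := by rw [sub_mul, one_mul, he, sub_self]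
    funext k
    have := congrFun (congrFun h j) k
    simpa [Matrix.mul_apply, vecMul, dotProduct] using this
  generalize e i = u at hi hu
  generalize (1 - e) j = v at hj hv
  let P : M2 D := Matrix.of ![u, v]
  have hP : ∀ x : Fin 2 → D, x ᵥ* P = x 0 • u + x 1 • v := by
    intro x
    funext k
    simp [P, vecMul, dotProduct, Fin.sum_univ_two]
  have hinj : ∀ x : Fin 2 → D, x ᵥ* P = 0 → x = 0 := by
    intro x hx
    rw [hP] at hx
    have h2 : (x 0 • u + x 1 • v) ᵥ* e = 0 := by rw [hx, zero_vecMul]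
    rw [add_vecMul, smul_vecMul, smul_vecMul, hu, hv, smul_zero, add_zero] at h2
    have h3 : x 0 = 0 := (smul_eq_zero.1 h2).resolve_right hi
    rw [h3, zero_smul, zero_add] at hx
    have h4 : x 1 = 0 := (smul_eq_zero.1 hx).resolve_right hj
    funext k
    fin_cases k
    exacts [h3, h4]
  have hsurj : Function.Surjective (Matrix.vecMulLinear P) :=
    LinearMap.injective_iff_surjective.1
      ((injective_iff_map_eq_zero _).2 fun x hx => hinj x (by simpa using hx))
  choose q hq using fun k : Fin 2 => hsurj ((1 : M2 D) k)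
  let Q : M2 D := Matrix.of q
  have hQP : Q * P = 1 := by
    ext k l
    have := congrFun (hq k) l
    simpa [Q, Matrix.mul_apply, vecMul, dotProduct] using this
  have hPQ : P * Q = 1 := by
    have h : (P * Q - 1) * P = 0 := by rw [sub_mul, mul_assoc, hQP, mul_one, one_mul, sub_self]
    refine sub_eq_zero.1 (Matrix.ext fun k l => congrFun (hinj ((P * Q - 1) k) ?_) l)
    funext m
    have := congrFun (congrFun h k) m
    simpa [Matrix.mul_apply, vecMul, dotProduct] using this
  refine ⟨P, Q, hPQ, hQP, ?_⟩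
  have hPe : P * e = !![1, 0; 0, 0] * P := by
    ext k l
    fin_cases k
    · have := congrFun hu l
      simpa [P, Matrix.mul_apply, vecMul, dotProduct, Fin.sum_univ_two] using this
    · have := congrFun hv l
      simpa [P, Matrix.mul_apply, vecMul, dotProduct, Fin.sum_univ_two] using this
  rw [hPe, mul_assoc, hPQ, mul_one]

theorem inj {e x y : M2 D} (he : e * e = e) (h1 : e ≠ 1) (hx : x * e = x) (hx0 : x ≠ 0)
    (hy : e * y = y) (h : x * y = 0) : y = 0 := by
  have h0 : e ≠ 0 := by
    rintro rfl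
    exact hx0 (by rw [← hx, mul_zero])
  obtain ⟨P, Q, hPQ, hQP, hE⟩ := nf he h0 h1
  have hcj : ∀ a b : M2 D, P * a * Q * (P * b * Q) = P * (a * b) * Q := by
    intro a b
    calc P * a * Q * (P * b * Q) = P * a * (Q * P) * b * Q := by simp only [mul_assoc]
      _ = _ := by rw [hQP, mul_one]; simp only [mul_assoc]
  have hz : ∀ a : M2 D, P * a * Q = 0 → a = 0 := by
    intro a ha
    calc a = (Q * P) * a * (Q * P) := by rw [hQP, one_mul, mul_one]
      _ = Q * (P * a * Q) * P := by simp only [mul_assoc]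
      _ = 0 := by rw [ha, mul_zero, zero_mul]
  have a1 := hcj x e
  have a2 := hcj e y
  have a3 := hcj x y
  rw [hx, hE] at a1
  rw [hy, hE] at a2
  rw [h, mul_zero, zero_mul] at a3
  have a0 : P * x * Q ≠ 0 := fun h => hx0 (hz x h)
  apply hz
  generalize P * x * Q = X at a0 a1 a3
  generalize P * y * Q = Y at a2 a3
  have x1 : ∀ k, X k 1 = 0 := fun k => by
    have := congrFun (congrFun a1 k) 1
    simpa [Matrix.mul_apply, Fin.sum_univ_two] using this.symm
  have y1 : ∀ l, Y 1 l = 0 := fun l => by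
    have := congrFun (congrFun a2 1) l
    simpa [Matrix.mul_apply, Fin.sum_univ_two] using this.symm
  obtain ⟨k, hk⟩ : ∃ k, X k 0 ≠ 0 := by
    by_contra hh
    push Not at hh
    apply a0
    ext k l
    fin_cases l
    exacts [hh k, x1 k]
  ext m l
  fin_cases m
  · have := congrFun (congrFun a3 k) l
    simp only [Matrix.mul_apply, Fin.sum_univ_two, x1, zero_mul, add_zero, Matrix.zero_apply] at this
    exact (mul_eq_zero.1 this).resolve_left hk
  · exact y1 l

/-- there are no three orthogonal non-zero idempotents -/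
theorem no3 {a b c : M2 D} (ha : a * a = a) (hb : b * b = b) (hab : a * b = 0) (hba : b * a = 0)
    (hac : a * c = 0) (hbc : b * c = 0) (a0 : a ≠ 0) (b0 : b ≠ 0) (c0 : c ≠ 0) : False := by
  refine b0 (inj (e := a + b) (x := a) ?_ ?_ ?_ a0 ?_ hab)
  · rw [add_mul, mul_add, mul_add, ha, hb, hab, hba, add_zero, zero_add]
  · intro h
    apply c0
    rw [← one_mul c, ← h, add_mul, hac, hbc, add_zero]
  · rw [mul_add, ha, hab, add_zero]
  · rw [add_mul, hab, hb, zero_add]

/-- below a non-trivial idempotent there is nothing -/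
theorem le_idem {e f : M2 D} (he : e * e = e) (h1 : e ≠ 1) (hf : f * f = f) (hef : e * f = f)
    (hfe : f * e = f) : f = 0 ∨ f = e := by
  by_contra h
  push Not at h
  refine no3 (a := f) (b := e - f) (c := 1 - e) hf ?_ ?_ ?_ ?_ ?_ h.1 (sub_ne_zero.2 h.2.symm)
    (sub_ne_zero.2 h1.symm)
  · rw [sub_mul, mul_sub, mul_sub, he, hef, hfe, hf, sub_self, sub_zero]
  · rw [mul_sub, hfe, hf, sub_self]
  · rw [sub_mul, hef, hf, sub_self]
  · rw [mul_sub, mul_one, hfe, sub_self]
  · rw [mul_sub, mul_one, sub_mul, he, hfe, sub_self]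

theorem comm_idem {e f : M2 D} (he : e * e = e) (e0 : e ≠ 0) (e1 : e ≠ 1) (hf : f * f = f)
    (f0 : f ≠ 0) (f1 : f ≠ 1) (hc : e * f = f * e) : f = e ∨ f = 1 - e := by
  have hi : e * f * (e * f) = e * f := by
    calc e * f * (e * f) = e * (f * e) * f := by simp only [mul_assoc]
      _ = (e * e) * (f * f) := by rw [← hc]; simp only [mul_assoc]
      _ = e * f := by rw [he, hf]
  rcases le_idem he e1 hi (by rw [← mul_assoc, he]) (by rw [mul_assoc, ← hc, ← mul_assoc, he]) with h | h
  · right
    have h' : (1 - e) * (1 - e) = 1 - e := by rw [sub_mul, one_mul, mul_sub, mul_one, he, sub_self, sub_zero]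
    refine (le_idem h' (fun hh => e0 (by simpa using hh)) hf ?_ ?_).resolve_left f0
    · rw [sub_mul, one_mul, h, sub_zero]
    · rw [mul_sub, mul_one, ← hc, h, sub_zero]
  · left
    exact ((le_idem hf f1 he (by rw [← hc, h]) h).resolve_left e0).symm

/-- the corners of a non-trivial idempotent -/
theorem corner {G : Type*} [Monoid G] (ρ : G →* M2 D) {e : M2 D} (he : e * e = e) (h0 : e ≠ 0)
    (h1 : e ≠ 1) (hc : ∀ g, ρ g * e = e * ρ g) :
    ∃ c1 c2 : G →* D, ∀ g g', c1 g = c1 g' → c2 g = c2 g' → ρ g = ρ g' := by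
  obtain ⟨P, Q, hPQ, hQP, hE⟩ := nf he h0 h1
  have hcj : ∀ a b : M2 D, P * a * Q * (P * b * Q) = P * (a * b) * Q := by
    intro a b
    calc P * a * Q * (P * b * Q) = P * a * (Q * P) * b * Q := by simp only [mul_assoc]
      _ = _ := by rw [hQP, mul_one]; simp only [mul_assoc]
  have hd : ∀ g, (P * ρ g * Q) 0 1 = 0 ∧ (P * ρ g * Q) 1 0 = 0 := by
    intro g
    have h := hcj (ρ g) e
    rw [hc, ← hcj e, hE] at h
    generalize P * ρ g * Q = X at h
    have a := congrFun (congrFun h 0) 1
    have b := congrFun (congrFun h 1) 0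
    constructor
    · simpa [Matrix.mul_apply, Fin.sum_univ_two] using a.symm
    · simpa [Matrix.mul_apply, Fin.sum_univ_two] using b
  have hm : ∀ (i : Fin 2) g g', (P * ρ (g * g') * Q) i i = (P * ρ g * Q) i i * (P * ρ g' * Q) i i := by
    intro i g g'
    rw [map_mul, ← hcj]
    have a := hd g
    have b := hd g'
    generalize P * ρ g * Q = X at a
    generalize P * ρ g' * Q = Y at b
    fin_cases i <;> simp [Matrix.mul_apply, Fin.sum_univ_two, a.1, a.2]
  let c : Fin 2 → (G →* D) := fun i =>
    { toFun := fun g => (P * ρ g * Q) i i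
      map_one' := by rw [map_one, mul_one, hPQ]; simp
      map_mul' := hm i }
  refine ⟨c 0, c 1, fun g g' a b => ?_⟩
  have h : P * ρ g * Q = P * ρ g' * Q := by
    ext k l
    fin_cases k <;> fin_cases l
    · exact a
    · exact (hd g).1.trans (hd g').1.symm
    · exact (hd g).2.trans (hd g').2.symm
    · exact b
  calc ρ g = (Q * P) * ρ g * (Q * P) := by rw [hQP, one_mul, mul_one]
    _ = Q * (P * ρ g * Q) * P := by simp only [mul_assoc]
    _ = (Q * P) * ρ g' * (Q * P) := by rw [h]; simp only [mul_assoc]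
    _ = ρ g' := by rw [hQP, one_mul, mul_one]

end Ring

section Eps

variable {R : Type*} [Ring R] [Algebra ℚ R]

/-- the idempotent of an element of order dividing `p` -/
noncomputable def eps (p : ℕ) (a : R) : R := (p : ℚ)⁻¹ • ∑ i ∈ Finset.range p, a ^ i

variable {p : ℕ} {a : R}

theorem mul_eps (ha : a ^ p = 1) : a * eps p a = eps p a := by
  unfold eps
  rw [mul_smul_comm]
  congr 1
  have h := Finset.sum_range_succ' (fun i => a ^ i) p
  rw [Finset.sum_range_succ, ha, pow_zero, add_left_inj] at h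
  rw [Finset.mul_sum]
  simp only [← pow_succ']
  exact h.symm

theorem pow_mul_eps (ha : a ^ p = 1) (k : ℕ) : a ^ k * eps p a = eps p a := by
  induction k with
  | zero => simp
  | succ k ih => rw [pow_succ, mul_assoc, mul_eps ha, ih]

theorem commute_eps {b : R} (h : Commute b a) : Commute b (eps p a) :=
  (Commute.sum_right _ _ _ fun i _ => h.pow_right i).smul_right _

theorem eps_mul (ha : a ^ p = 1) : eps p a * a = eps p a := by
  rw [← (commute_eps (Commute.refl a)).eq, mul_eps ha]

theorem eps_idem (hp : p ≠ 0) (ha : a ^ p = 1) : eps p a * eps p a = eps p a := by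
  nth_rewrite 1 [eps]
  rw [smul_mul_assoc, Finset.sum_mul]
  simp only [pow_mul_eps ha]
  rw [Finset.sum_const, Finset.card_range, ← Nat.cast_smul_eq_nsmul ℚ, smul_smul,
    inv_mul_cancel₀ (by exact_mod_cast hp), one_smul]

theorem eps_ne_one (ha : a ^ p = 1) (h1 : a ≠ 1) : eps p a ≠ 1 := by
  intro h
  have := mul_eps ha
  rw [h, mul_one] at this
  exact h1 this

theorem conj_eps {b c : R} (hb : c * b = 1) (hb' : b * c = 1) :
    b * eps p a * c = eps p (b * a * c) := by
  unfold eps
  rw [mul_smul_comm, smul_mul_assoc, Finset.mul_sum, Finset.sum_mul]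
  congr 1
  refine Finset.sum_congr rfl fun i hi => ?_
  clear hi
  induction i with
  | zero => simp [hb']
  | succ i ih =>
    rw [pow_succ, pow_succ, ← ih]
    calc b * (a ^ i * a) * c = b * a ^ i * (c * b) * a * c := by rw [hb, mul_one]; simp only [mul_assoc]
      _ = _ := by simp only [mul_assoc]

theorem smul_eps (hp : p ≠ 0) : (p : ℚ) • eps p a = ∑ i ∈ Finset.range p, a ^ i := by
  rw [eps, smul_smul, mul_inv_cancel₀ (by exact_mod_cast hp), one_smul]

theorem eps_two : eps 2 a = (2 : ℚ)⁻¹ • (1 + a) := by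
  simp [eps, Finset.sum_range_succ]

/-- a group of exponent `p` all of whose elements act without fixed points has order at most `p` -/
theorem card_le_of_eps [Nontrivial R] {H : Type*} [Group H] [Finite H] (hp : p.Prime) (φ : H →* R)
    (hH : ∀ x : H, x ^ p = 1) (h0 : ∀ x : H, x ≠ 1 → eps p (φ x) = 0) : Nat.card H ≤ p := by
  classical
  have := Fintype.ofFinite H
  set S : R := ∑ x : H, φ x with hS
  have h1 : ∑ x : H, ∑ i ∈ Finset.range p, φ x ^ i = (p : ℚ) • (1 : R) := by
    rw [Finset.sum_eq_single (1 : H)]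
    · simp [Nat.cast_smul_eq_nsmul]
    · intro x _ hx
      rw [← smul_eps hp.ne_zero, h0 x hx, smul_zero]
    · simp
  have h2 : ∀ i ∈ Finset.range (p - 1), ∑ x : H, φ x ^ (i + 1) = S := by
    intro i hi
    have hc : (Nat.card H).Coprime (i + 1) := by
      have := Fact.mk hp
      obtain ⟨n, hn⟩ := IsPGroup.iff_card.1
        (show IsPGroup p H from fun x => ⟨1, by rw [pow_one, hH]⟩)
      rw [hn]
      have := Finset.mem_range.1 hi
      exact Nat.Coprime.pow_left _ (Nat.coprime_of_lt_prime (by omega) (by omega) hp)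
    rw [hS]
    simp only [← map_pow]
    exact Fintype.sum_equiv (powCoprime hc) _ _ fun x => rfl
  have hp1 : p = (p - 1) + 1 := by have := hp.one_lt; omega
  rw [Finset.sum_comm] at h1
  nth_rewrite 1 [hp1] at h1
  rw [Finset.sum_range_succ', Finset.sum_congr rfl h2] at h1
  simp only [Finset.sum_const, Finset.card_range, pow_zero, Finset.card_univ] at h1
  rw [← Nat.card_eq_fintype_card, ← Nat.cast_smul_eq_nsmul ℚ, ← Nat.cast_smul_eq_nsmul ℚ] at h1
  have hq : ((p - 1 : ℕ) : ℚ) ≠ 0 := by have := hp.one_lt; exact_mod_cast (by omega : p - 1 ≠ 0)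
  set c : ℚ := ((p - 1 : ℕ) : ℚ)⁻¹ * (p - Nat.card H) with hc
  have h3 : S = c • (1 : R) := by
    rw [hc, mul_smul, sub_smul, ← h1, add_sub_cancel_right, smul_smul, inv_mul_cancel₀ hq, one_smul]
  have h4 : S * S = (Nat.card H : ℚ) • S := by
    nth_rewrite 1 [hS]
    rw [Finset.sum_mul]
    have : ∀ y : H, φ y * S = S := fun y => by
      rw [hS, Finset.mul_sum]
      simp only [← map_mul]
      exact Fintype.sum_equiv (Equiv.mulLeft y) _ _ fun x => rfl
    simp only [this]
    rw [Finset.sum_const, Finset.card_univ, Nat.cast_smul_eq_nsmul, Nat.card_eq_fintype_card]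
  rw [h3, smul_mul_smul_comm, mul_one, smul_smul, ← Algebra.algebraMap_eq_smul_one,
    ← Algebra.algebraMap_eq_smul_one] at h4
  have h5 := (algebraMap ℚ R).injective h4
  have h6 : ((p - 1 : ℕ) : ℚ) * c = p - Nat.card H := by rw [hc, ← mul_assoc, mul_inv_cancel₀ hq, one_mul]
  rcases eq_or_ne c 0 with h | h
  · rw [h, mul_zero] at h6
    have : (Nat.card H : ℚ) = p := by linarith
    exact le_of_eq (by exact_mod_cast this)
  · have h7 := mul_right_cancel₀ h h5
    rw [h7] at h6
    have h8 : (0 : ℚ) ≤ ((p - 1 : ℕ) : ℚ) * (Nat.card H : ℚ) := by positivity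
    have : (Nat.card H : ℚ) ≤ p := by linarith
    exact_mod_cast this

end Eps

end Cfsg.Agent.H41.Q2
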