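import Cfsg.Agent.H41.Q2A

/-!
# Finite subgroups of `GL₂` over a division ring of characteristic zero: small subgroups
-/

set_option autoImplicit false

namespace Cfsg.Agent.H41.Q2

open Matrix

variable {D : Type*} [DivisionRing D] [CharZero D] {G : Type*} [Group G] [Finite G] {p : ℕ}

theorem div_sub_le (hp : p.Prime) (E : Subgroup Dˣ) [Finite E] (hE : ∀ x ∈ E, x ^ p = 1) :
    Nat.card E ≤ p := by
  refine card_le_of_eps hp ((Units.coeHom D).comp E.subtype) (fun x => Subtype.ext (hE x x.2))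
    fun x hx => ?_
  have h1 : ((Units.coeHom D).comp E.subtype x) ^ p = 1 := by
    rw [← map_pow, show x ^ p = 1 from Subtype.ext (hE x x.2), map_one]
  have h2 : (Units.coeHom D).comp E.subtype x ≠ 1 := fun h => hx (Subtype.ext (Units.ext h))
  have h3 := eps_idem hp.ne_zero h1
  by_contra h0
  exact eps_ne_one h1 h2 (mul_right_cancel₀ h0 (h3.trans (one_mul _).symm))

omit [CharZero D] in
instance finite_range (c : G →* D) : Finite c.toHomUnits.range :=
  Finite.of_surjective _ c.toHomUnits.rangeRestrict_surjective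

variable {ρ : G →* M2 D}

omit [Finite G] [CharZero D] in
theorem rho_inv (g : G) : ρ g⁻¹ * ρ g = 1 := by rw [← map_mul, inv_mul_cancel, map_one]

omit [Finite G] [CharZero D] in
theorem rho_inv' (g : G) : ρ g * ρ g⁻¹ = 1 := by rw [← map_mul, mul_inv_cancel, map_one]

omit [Finite G] [CharZero D] in
theorem rho_pow {g : G} {n : ℕ} (h : g ^ n = 1) : ρ g ^ n = 1 := by rw [← map_pow, h, map_one]

omit [Finite G] [CharZero D] in
theorem rho_ne (hρ : Function.Injective ρ) {g : G} (h : g ≠ 1) : ρ g ≠ 1 :=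
  fun e => h (hρ (e.trans (map_one ρ).symm))

omit [Finite G] in
theorem conj_eps_rho (g x : G) : ρ g * eps p (ρ x) * ρ g⁻¹ = eps p (ρ (g * x * g⁻¹)) := by
  rw [conj_eps (rho_inv g) (rho_inv' g), map_mul, map_mul]

theorem rank2 (hp : p.Prime) (hρ : Function.Injective ρ) (hc : ∀ a b : G, a * b = b * a)
    (hG : ∀ x : G, x ^ p = 1) : Nat.card G ≤ p ^ 2 := by
  by_cases h0 : ∀ x : G, x ≠ 1 → eps p (ρ x) = 0
  · exact (card_le_of_eps hp ρ hG h0).trans (Nat.le_self_pow two_ne_zero p)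
  push Not at h0
  obtain ⟨x, hx, h0⟩ := h0
  obtain ⟨c1, c2, h⟩ := corner ρ (eps_idem hp.ne_zero (rho_pow (hG x))) h0
    (eps_ne_one (rho_pow (hG x)) (rho_ne hρ hx))
    fun g => (commute_eps (show Commute (ρ g) (ρ x) by rw [Commute, SemiconjBy, ← map_mul, hc, map_mul])).eq
  have hr : ∀ c : G →* D, Nat.card c.toHomUnits.range ≤ p := fun c =>
    div_sub_le hp _ (by rintro _ ⟨g, rfl⟩; rw [← map_pow, hG, map_one])
  have hi : Function.Injective fun g : G =>
      (c1.toHomUnits.rangeRestrict g, c2.toHomUnits.rangeRestrict g) := by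
    intro g g' e
    simp only [Prod.mk.injEq] at e
    exact hρ (h g g' (congrArg (fun x : c1.toHomUnits.range => ((x : Dˣ) : D)) e.1)
      (congrArg (fun x : c2.toHomUnits.range => ((x : Dˣ) : D)) e.2))
  have := Nat.card_le_card_of_injective _ hi
  rw [Nat.card_prod] at this
  rw [sq]
  exact this.trans (Nat.mul_le_mul (hr c1) (hr c2))

theorem rank2_sub (hp : p.Prime) (hρ : Function.Injective ρ) (E : Subgroup G)
    (hc : ∀ a ∈ E, ∀ b ∈ E, a * b = b * a) (hE : ∀ x ∈ E, x ^ p = 1) : Nat.card E ≤ p ^ 2 :=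
  rank2 (ρ := ρ.comp E.subtype) hp (hρ.comp E.subtype_injective)
    (fun a b => Subtype.ext (hc a a.2 b b.2)) fun x => Subtype.ext (hE x x.2)

omit [Finite G] in
/-- every four-group contains `-1` -/
theorem four (hρ : Function.Injective ρ) {a b : G} (ha : a ^ 2 = 1) (hb : b ^ 2 = 1) (a1 : a ≠ 1)
    (b1 : b ≠ 1) (hab : a ≠ b) (hc : a * b = b * a) : ρ a = -1 ∨ ρ b = -1 ∨ ρ (a * b) = -1 := by
  by_contra hh
  push Not at hh
  have key : ∀ {x : G}, ρ x ≠ -1 → eps 2 (ρ x) ≠ 0 := by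
    intro x hx h
    rw [eps_two, smul_eq_zero] at h
    rcases h with h | h
    · norm_num at h
    · exact hx (eq_neg_of_add_eq_zero_right h)
  have h2 : ∀ x y : M2 D, (2 : ℚ)⁻¹ • x = (2 : ℚ)⁻¹ • y → x = y := fun x y h =>
    smul_right_injective _ (by norm_num : (2 : ℚ)⁻¹ ≠ 0) h
  have hcm : Commute (ρ a) (ρ b) := by rw [Commute, SemiconjBy, ← map_mul, hc, map_mul]
  rcases comm_idem (eps_idem two_ne_zero (rho_pow ha)) (key hh.1) (eps_ne_one (rho_pow ha) (rho_ne hρ a1))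
    (eps_idem two_ne_zero (rho_pow hb)) (key hh.2.1) (eps_ne_one (rho_pow hb) (rho_ne hρ b1))
    (commute_eps (commute_eps hcm).symm).symm.eq with h | h
  · rw [eps_two, eps_two] at h
    exact hab (hρ (add_left_cancel (h2 _ _ h))).symm
  · rw [eps_two, eps_two] at h
    have h3 : (1 : M2 D) - (2 : ℚ)⁻¹ • (1 + ρ a) = (2 : ℚ)⁻¹ • (1 + -ρ a) := by module
    rw [h3] at h
    apply hh.2.2
    rw [map_mul, add_left_cancel (h2 _ _ h), mul_neg, ← sq, rho_pow ha]

omit [Finite G] [CharZero D] in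
theorem neg_one_central (hρ : Function.Injective ρ) {w : G} (h : ρ w = -1) :
    w ∈ Subgroup.center G :=
  Subgroup.mem_center_iff.2 fun g => hρ (by rw [map_mul, map_mul, h, mul_neg, neg_mul, mul_one, one_mul])

omit [Finite G] in
/-- the square of an element mapping `x` to an element commuting with `x` fixes the idempotent -/
theorem sq_comm_eps (hp : p ≠ 0) (hρ : Function.Injective ρ) {x g : G} (hx : x ^ p = 1) (x1 : x ≠ 1)
    (h0 : eps p (ρ x) ≠ 0) (hc : x * (g * x * g⁻¹) = g * x * g⁻¹ * x) :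
    ρ (g ^ 2) * eps p (ρ x) = eps p (ρ x) * ρ (g ^ 2) := by
  have hy : (g * x * g⁻¹) ^ p = 1 := by rw [conj_pow, hx, mul_one, mul_inv_cancel]
  have y1 : g * x * g⁻¹ ≠ 1 := by simpa using x1
  have hf := conj_eps_rho (ρ := ρ) (p := p) g x
  have hcm : Commute (ρ x) (ρ (g * x * g⁻¹)) := by rw [Commute, SemiconjBy, ← map_mul, hc, map_mul]
  have f0 : eps p (ρ (g * x * g⁻¹)) ≠ 0 := by
    intro h
    apply h0
    rw [h] at hf
    calc eps p (ρ x) = (ρ g⁻¹ * ρ g) * eps p (ρ x) * (ρ g⁻¹ * ρ g) := by rw [rho_inv, one_mul, mul_one]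
      _ = ρ g⁻¹ * (ρ g * eps p (ρ x) * ρ g⁻¹) * ρ g := by simp only [mul_assoc]
      _ = 0 := by rw [hf, mul_zero, zero_mul]
  have h := comm_idem (eps_idem hp (rho_pow hx)) h0 (eps_ne_one (rho_pow hx) (rho_ne hρ x1))
    (eps_idem hp (rho_pow hy)) f0 (eps_ne_one (rho_pow hy) (rho_ne hρ y1))
    (commute_eps (commute_eps hcm).symm).symm.eq
  rw [← hf] at h
  generalize eps p (ρ x) = e at h
  have hg : ∀ a b : M2 D, ρ g * a * ρ g⁻¹ = b → ρ g * a = b * ρ g := by
    rintro a b rfl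
    rw [mul_assoc _ (ρ g⁻¹), rho_inv, mul_one]
  rw [sq, map_mul]
  rcases h with h | h
  · rw [mul_assoc, hg _ _ h, ← mul_assoc, hg _ _ h, mul_assoc]
  · have h' := hg _ _ h
    have h'' : ρ g * (1 - e) = e * ρ g := by rw [mul_sub, h', sub_mul, mul_one, one_mul, sub_sub_cancel]
    rw [mul_assoc, h', ← mul_assoc, h'', mul_assoc]

omit [Finite G] [CharZero D] in
theorem comm_of_sq {g : G} {n : ℕ} (hn : Odd n) (hg : g ^ n = 1) {e : M2 D}
    (h : ρ (g ^ 2) * e = e * ρ (g ^ 2)) : ρ g * e = e * ρ g := by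
  obtain ⟨k, rfl⟩ := hn
  have : g = (g ^ 2) ^ (k + 1) := by
    rw [← pow_mul, show 2 * (k + 1) = 2 * k + 1 + 1 by ring, pow_succ, hg, one_mul]
  rw [this, map_pow]
  exact (Commute.pow_left h _).eq

theorem div_cyclic [Fact p.Prime] (hp2 : p ≠ 2) (hG : IsPGroup p G) (c : G →* D) (a b : G) :
    c (a * b) = c (b * a) := by
  have hp : p.Prime := Fact.out
  have hc : IsCyclic c.toHomUnits.range := by
    by_contra h
    obtain ⟨A, -, hA, hcard⟩ := S0126.result hp2
      (hG.of_surjective _ c.toHomUnits.rangeRestrict_surjective) h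
    have e := Subgroup.equivMapOfInjective A _ c.toHomUnits.range.subtype_injective
    have : Finite (A.map c.toHomUnits.range.subtype) := Finite.of_equiv _ e.toEquiv
    have h1 := div_sub_le hp (A.map c.toHomUnits.range.subtype) (by
      rintro _ ⟨y, hy, rfl⟩
      rw [← map_pow, hA.2 y hy, map_one])
    rw [← Nat.card_congr e.toEquiv, hcard] at h1
    have := hp.one_lt
    nlinarith
  have := hc.isMulCommutative.is_comm.comm (c.toHomUnits.rangeRestrict a) (c.toHomUnits.rangeRestrict b)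
  rw [← map_mul, ← map_mul] at this
  exact congrArg (fun x : c.toHomUnits.range => ((x : Dˣ) : D)) this

/-- `p`-subgroups are abelian for odd `p` -/
theorem odd_comm [Fact p.Prime] (hp2 : p ≠ 2) (hρ : Function.Injective ρ) (hG : IsPGroup p G)
    (a b : G) : a * b = b * a := by
  have hp : p.Prime := Fact.out
  by_cases hc : IsCyclic G
  · exact hc.isMulCommutative.is_comm.comm a b
  obtain ⟨E, hEn, hE, hcard⟩ := S0126.result hp2 hG hc
  have h0 : ¬ ∀ x : E, x ≠ 1 → eps p (ρ.comp E.subtype x) = 0 := by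
    intro h0
    have h1 := card_le_of_eps hp (ρ.comp E.subtype) (fun x => Subtype.ext (hE.2 x x.2)) h0
    rw [hcard] at h1
    have := hp.one_lt
    nlinarith
  push Not at h0
  obtain ⟨⟨x, hx⟩, x1, h0⟩ := h0
  have x1' : x ≠ 1 := fun h => x1 (Subtype.ext h)
  obtain ⟨c1, c2, h⟩ := corner ρ (eps_idem hp.ne_zero (rho_pow (hE.2 x hx))) h0
    (eps_ne_one (rho_pow (hE.2 x hx)) (rho_ne hρ x1')) fun g => by
      obtain ⟨k, hk⟩ := hG g
      exact comm_of_sq ((hp.odd_of_ne_two hp2).pow) hk (sq_comm_eps hp.ne_zero hρ (hE.2 x hx) x1' h0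
        (congrArg Subtype.val (hE.1.is_comm.comm (⟨x, hx⟩ : E) ⟨_, hEn.conj_mem x hx g⟩)))
  exact hρ (h _ _ (div_cyclic hp2 hG c1 a b) (div_cyclic hp2 hG c2 a b))

end Cfsg.Agent.H41.Q2
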