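import Cfsg.Agent.H41.Q2B
import Cfsg.Agent.H11.Basic

/-!
# Finite subgroups of `GL₂` over a division ring of characteristic zero: traces
-/

set_option autoImplicit false

namespace Cfsg.Agent.H41.Q2

open Module

section Gen

variable {R : Type*} [Ring R] [Algebra ℚ R] {G : Type*} [Group G] [Finite G] {p r : ℕ}

theorem eps_mul_eps {a b : R} {k : ℕ} (hp : p ≠ 0) (ha : a ^ p = 1) (h : b = a ^ k) :
    eps p b * eps p a = eps p a := by
  nth_rewrite 1 [eps]
  rw [smul_mul_assoc, Finset.sum_mul]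
  simp only [h, ← pow_mul, pow_mul_eps ha]
  rw [Finset.sum_const, Finset.card_range, ← Nat.cast_smul_eq_nsmul ℚ, smul_smul,
    inv_mul_cancel₀ (by exact_mod_cast hp), one_smul]

theorem eps_eq (hp : p.Prime) (φ : G →* R) {u v : G} (hu : u ^ p = 1) {k : ℕ} (hv : v = u ^ k)
    (v1 : v ≠ 1) : eps p (φ v) = eps p (φ u) := by
  have := Fact.mk hp
  have hv' : v ^ p = 1 := by rw [hv, ← pow_mul, mul_comm, pow_mul, hu, one_pow]
  have u1 : u ≠ 1 := by rintro rfl; exact v1 (by rw [hv, one_pow])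
  have hz : Subgroup.zpowers v = Subgroup.zpowers u := by
    refine Subgroup.eq_of_le_of_card_ge (Subgroup.zpowers_le.2 (hv ▸ Subgroup.npow_mem_zpowers u k)) ?_
    rw [Nat.card_zpowers, Nat.card_zpowers, orderOf_eq_prime hu u1, orderOf_eq_prime hv' v1]
  obtain ⟨l, hl⟩ := mem_powers_iff_mem_zpowers.2 (hz.ge (Subgroup.mem_zpowers u))
  have e1 : φ u ^ p = 1 := by rw [← map_pow, hu, map_one]
  have e2 : φ v ^ p = 1 := by rw [← map_pow, hv', map_one]
  have h1 := eps_mul_eps hp.ne_zero e1 (show φ v = φ u ^ k by rw [hv, map_pow])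
  have h2 := eps_mul_eps hp.ne_zero e2 (show φ u = φ v ^ l by rw [← map_pow]; exact congrArg φ hl.symm)
  have hc : Commute (φ v) (φ u) := by rw [hv, map_pow]; exact (Commute.refl _).pow_left k
  rw [← h1, (commute_eps (commute_eps hc).symm).symm.eq, h2]

theorem frob_sum (hp : p.Prime) (hr : r.Prime) (φ : G →* R) {u h : G} (hu : u ^ p = 1)
    (hh : h ^ r = 1) {k : ℕ} (hk : h * u * h⁻¹ = u ^ k) (hne : h * u ≠ u * h) :
    ∃ b : R, ∑ i ∈ Finset.range p, φ (u ^ i) * eps r (φ h) * φ (u ^ i)⁻¹ =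
      ((r : ℚ)⁻¹ * p) • (1 + eps p (φ u) * b) := by
  have := Fact.mk hr
  have ha : ∀ j : ℕ, h ^ j * u * (h ^ j)⁻¹ = u ^ k ^ j := by
    intro j
    induction j with
    | zero => simp
    | succ j ih =>
      rw [pow_succ' k, pow_mul, ← hk, conj_pow, ← ih]
      group
  have h1 : h ≠ 1 := by rintro rfl; simp at hne
  have hb : ∀ j ∈ Finset.range (r - 1), ∑ i ∈ Finset.range p, φ (u ^ i) * φ h ^ (j + 1) * φ (u ^ i)⁻¹ =
      (p : ℚ) • (eps p (φ u) * φ h ^ (j + 1)) := by
    intro j hj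
    have hj' := Finset.mem_range.1 hj
    have hu' : u⁻¹ = u ^ (p - 1) := by
      rw [inv_eq_iff_mul_eq_one, ← pow_succ', Nat.sub_add_cancel hp.one_lt.le, hu]
    have hv : u * (u ^ k ^ (j + 1))⁻¹ = u ^ (1 + (p - 1) * k ^ (j + 1)) := by
      rw [← inv_pow, hu', ← pow_mul, pow_add u, pow_one]
    have v1 : u * (u ^ k ^ (j + 1))⁻¹ ≠ 1 := by
      intro e
      rw [mul_inv_eq_one, ← ha] at e
      have hc : Commute u (h ^ (j + 1)) := by
        rw [Commute, SemiconjBy]
        exact (eq_mul_inv_iff_mul_eq.1 e)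
      have hco : (orderOf h).Coprime (j + 1) := by
        rw [orderOf_eq_prime hh h1]
        exact Nat.coprime_of_lt_prime (by omega) (by omega) hr
      obtain ⟨m, hm⟩ := exists_pow_eq_self_of_coprime hco.symm
      exact hne (by rw [← hm]; exact (hc.pow_right m).eq.symm)
    rw [← eps_eq hp φ hu hv v1, ← smul_mul_assoc, smul_eps hp.ne_zero, Finset.sum_mul]
    refine Finset.sum_congr rfl fun i _ => ?_
    simp only [← map_pow, ← map_mul]
    congr 1
    rw [((Commute.refl u).pow_right _).inv_right.mul_pow, ← ha, inv_pow, conj_pow]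
    group
  refine ⟨∑ j ∈ Finset.range (r - 1), φ h ^ (j + 1), ?_⟩
  simp only [eps, mul_smul_comm, smul_mul_assoc, Finset.mul_sum (s := Finset.range r),
    Finset.sum_mul (s := Finset.range r)]
  rw [← Finset.smul_sum, Finset.sum_comm, mul_smul]
  congr 1
  have hr1 : r = (r - 1) + 1 := by have := hr.one_lt; omega
  rw [hr1, Finset.sum_range_succ', Finset.sum_congr rfl hb, ← Finset.smul_sum, ← Finset.mul_sum, add_comm,
    smul_add]
  congr 1
  · simp only [pow_zero, mul_one, ← map_mul, mul_inv_cancel, map_one]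
    rw [Finset.sum_const, Finset.card_range, Nat.cast_smul_eq_nsmul]
  · simp only [eps, smul_mul_assoc, Nat.add_sub_cancel]

end Gen

variable {D : Type*} [DivisionRing D] [CharZero D] {G : Type*} [Group G] [Finite G] {p r : ℕ}

/-- no non-trivial idempotent commutes with the group -/
def Irr (ρ : G →* M2 D) : Prop :=
  ∀ c : M2 D, c * c = c → (∀ g, ρ g * c = c * ρ g) → c = 0 ∨ c = 1

variable {ρ : G →* M2 D}

theorem avg (hI : Irr ρ) {e : M2 D} (e0 : e ≠ 0) (e1 : e ≠ 1) (he : e * e = e) :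
    ∃ g, e * ρ g * (1 - e) ≠ 0 := by
  classical
  have := Fintype.ofFinite G
  by_contra h
  push Not at h
  have h' : ∀ g, e * ρ g * e = e * ρ g := fun g => by
    have := h g
    rw [mul_sub, mul_one, sub_eq_zero] at this
    exact this.symm
  have hn : ((Fintype.card G : ℕ) : ℚ) ≠ 0 := by exact_mod_cast Fintype.card_ne_zero
  set c : M2 D := ((Fintype.card G : ℕ) : ℚ)⁻¹ • ∑ g : G, ρ g⁻¹ * e * ρ g with hc
  have h1 : c * e = c := by
    rw [hc, smul_mul_assoc, Finset.sum_mul]
    congr 1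
    exact Finset.sum_congr rfl fun g _ => by rw [mul_assoc (ρ g⁻¹), mul_assoc, h']
  have h2 : e * c = e := by
    rw [hc, mul_smul_comm, Finset.mul_sum]
    have : ∀ g, e * (ρ g⁻¹ * e * ρ g) = e := fun g => by
      rw [← mul_assoc, ← mul_assoc, h', mul_assoc, rho_inv, mul_one]
    simp only [this]
    rw [Finset.sum_const, Finset.card_univ, ← Nat.cast_smul_eq_nsmul ℚ, smul_smul, inv_mul_cancel₀ hn,
      one_smul]
  have h3 : ∀ x, ρ x * c = c * ρ x := by
    intro x
    rw [hc, mul_smul_comm, smul_mul_assoc, Finset.mul_sum, Finset.sum_mul]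
    congr 1
    refine Fintype.sum_equiv (Equiv.mulRight x⁻¹) _ _ fun g => ?_
    simp only [Equiv.coe_mulRight, mul_inv_rev, inv_inv, map_mul, mul_assoc, rho_inv, mul_one]
  rcases hI c (by rw [← h1, mul_assoc, ← mul_assoc e, h2, he]) h3 with h0 | h0
  · exact e0 (by rw [← h2, h0, mul_zero])
  · exact e1 (by rw [h0, one_mul] at h1; exact h1)

/-- the rational span of the group -/
noncomputable def alg (ρ : G →* M2 D) : Subalgebra ℚ (M2 D) := Algebra.adjoin ℚ (Set.range ρ)

instance fin_alg (ρ : G →* M2 D) : Module.Finite ℚ (alg ρ) := by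
  have h1 : Module.Finite ℚ (Subalgebra.toSubmodule (alg ρ)) := by
    rw [alg, Algebra.adjoin_eq_span, ← MonoidHom.coe_mrange, Submonoid.closure_eq]
    exact Module.Finite.span_of_finite _ (Set.finite_range ρ)
  exact h1

/-- the group inside its span -/
noncomputable def lift (ρ : G →* M2 D) : G →* alg ρ :=
  ρ.codRestrict (alg ρ) fun g => Algebra.subset_adjoin ⟨g, rfl⟩

omit [Finite G] in
theorem coe_lift (g : G) : (lift ρ g : M2 D) = ρ g := rfl

omit [Finite G] in
theorem coe_eps (a : alg ρ) : ((eps p a : alg ρ) : M2 D) = eps p (a : M2 D) := by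
  simp [eps]

/-- the regular trace -/
noncomputable def tr (ρ : G →* M2 D) : alg ρ →ₗ[ℚ] ℚ :=
  (LinearMap.trace ℚ (alg ρ)).comp (Algebra.lmul ℚ (alg ρ)).toLinearMap

omit [Finite G] in
theorem tr_apply (a : alg ρ) : tr ρ a = LinearMap.trace ℚ (alg ρ) (Algebra.lmul ℚ (alg ρ) a) := rfl

omit [Finite G] in
theorem tr_comm (a b : alg ρ) : tr ρ (a * b) = tr ρ (b * a) := by
  rw [tr_apply, tr_apply, map_mul (Algebra.lmul ℚ (alg ρ)), map_mul (Algebra.lmul ℚ (alg ρ)),
    LinearMap.trace_mul_comm]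

theorem tr_one_pos : 0 < tr ρ 1 := by
  rw [tr_apply, map_one, LinearMap.trace_one]
  exact_mod_cast Module.finrank_pos

theorem trace_idem {V : Type*} [AddCommGroup V] [Module ℚ V] [Module.Finite ℚ V] (f : Module.End ℚ V)
    (hf : IsIdempotentElem f) : LinearMap.trace ℚ V f = finrank ℚ (LinearMap.range f) :=
  (LinearMap.IsIdempotentElem.isProj_range _ hf).trace

theorem tr_idem {e : alg ρ} (he : e * e = e) :
    tr ρ e = finrank ℚ (LinearMap.range (Algebra.lmul ℚ (alg ρ) e)) := by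
  have : IsIdempotentElem (Algebra.lmul ℚ (alg ρ) e) := by
    rw [IsIdempotentElem, ← map_mul, he]
  exact trace_idem (V := alg ρ) _ this

theorem tr_le (hI : Irr ρ) {e : alg ρ} (he : e * e = e) (e0 : e ≠ 0) (e1 : e ≠ 1) :
    tr ρ (1 - e) ≤ tr ρ e := by
  have he' : (1 - e) * (1 - e) = 1 - e := by rw [sub_mul, one_mul, mul_sub, mul_one, he, sub_self, sub_zero]
  obtain ⟨g, hg⟩ := avg hI (e := e) (fun h => e0 (Subtype.ext h)) (fun h => e1 (Subtype.ext h))
    (congrArg Subtype.val he)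
  rw [tr_idem he, tr_idem he', Nat.cast_le]
  let x : alg ρ := e * lift ρ g * (1 - e)
  refine LinearMap.finrank_le_finrank_of_injective (f := LinearMap.codRestrict _
    ((Algebra.lmul ℚ (alg ρ) x).comp (LinearMap.range (Algebra.lmul ℚ (alg ρ) (1 - e))).subtype)
      fun y => ⟨lift ρ g * (1 - e) * y, by
        change e * (lift ρ g * (1 - e) * y) = x * y
        simp only [x, mul_assoc]⟩) ?_
  refine (injective_iff_map_eq_zero _).2 ?_
  rintro ⟨_, y, rfl⟩ hy
  have h1 : x * ((1 - e) * y) = 0 := congrArg Subtype.val hy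
  refine Subtype.ext (Subtype.ext (inj (e := ((1 - e : alg ρ) : M2 D)) (x := x)
    (congrArg Subtype.val he') (fun h => e0 ?_) ?_ hg ?_ (congrArg Subtype.val h1)))
  · have : 1 - e = 1 := Subtype.ext h
    simpa using this
  · have : x * (1 - e) = x := by simp only [x]; rw [mul_assoc, he']
    exact congrArg Subtype.val this
  · have : (1 - e) * ((1 - e) * y) = (1 - e) * y := by rw [← mul_assoc, he']
    exact congrArg Subtype.val this

theorem half (hI : Irr ρ) {e : alg ρ} (he : e * e = e) (e0 : e ≠ 0) (e1 : e ≠ 1) :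
    2 * tr ρ e = tr ρ 1 := by
  have he' : (1 - e) * (1 - e) = 1 - e := by rw [sub_mul, one_mul, mul_sub, mul_one, he, sub_self, sub_zero]
  have h1 := tr_le hI he e0 e1
  have h2 := tr_le hI he' (sub_ne_zero.2 e1.symm) (fun h => e0 (by simpa using h))
  rw [sub_sub_cancel] at h2
  rw [map_sub] at h1 h2
  linarith

/-- there is no Frobenius group of order `p r` with `r` odd -/
theorem frob (hp : p.Prime) (hr : r.Prime) (hr2 : r ≠ 2) (hρ : Function.Injective ρ) {u h : G}
    (hu : u ^ p = 1) (hh : h ^ r = 1) {k : ℕ} (hk : h * u * h⁻¹ = u ^ k) (hne : h * u ≠ u * h) :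
    False := by
  have h1 : h ≠ 1 := by rintro rfl; simp at hne
  have u1 : u ≠ 1 := by rintro rfl; simp at hne
  have hp0 : (p : ℚ) ≠ 0 := by exact_mod_cast hp.ne_zero
  have hr0 : (r : ℚ) ≠ 0 := by exact_mod_cast hr.ne_zero
  obtain ⟨b, hb⟩ := frob_sum hp hr ρ hu hh hk hne
  have hsum : ∀ c : M2 D, Commute c (ρ u) → c * eps p (ρ u) = 0 →
      ∑ i ∈ Finset.range p, ρ (u ^ i) * (c * eps r (ρ h)) * ρ (u ^ i)⁻¹ = ((r : ℚ)⁻¹ * p) • c := by
    intro c hc h0
    have := congrArg (c * ·) hb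
    simp only [Finset.mul_sum, mul_smul_comm, mul_add, mul_one, ← mul_assoc, h0, zero_mul,
      add_zero] at this
    rw [← this]
    refine Finset.sum_congr rfl fun i _ => ?_
    rw [map_pow, (hc.pow_right i).eq, mul_assoc _ c]
  have key : ∀ c : M2 D, c * c = c → c ≠ 0 → Commute c (ρ u) → Commute c (ρ h) →
      c * eps p (ρ u) = 0 → c = 1 := by
    intro c hcc c0 hcu hch h0
    by_contra c1
    have hce := commute_eps (p := r) hch
    have hs := hsum c hcu h0
    rcases le_idem hcc c1 (f := c * eps r (ρ h))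
      (by rw [← hce.mul_mul_mul_comm, hcc, eps_idem hr.ne_zero (rho_pow hh)])
      (by rw [← mul_assoc, hcc]) (by rw [mul_assoc, ← hce.eq, ← mul_assoc, hcc]) with h2 | h2
    · rw [h2] at hs
      simp only [mul_zero, zero_mul, Finset.sum_const_zero] at hs
      exact c0 ((smul_eq_zero.1 hs.symm).resolve_left (mul_ne_zero (inv_ne_zero hr0) hp0))
    · rw [h2] at hs
      have : ∀ i : ℕ, ρ (u ^ i) * c * ρ (u ^ i)⁻¹ = c := fun i => by
        rw [map_pow, ← (hcu.pow_right i).eq, ← map_pow, mul_assoc, rho_inv', mul_one]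
      simp only [this] at hs
      rw [Finset.sum_const, Finset.card_range, ← Nat.cast_smul_eq_nsmul ℚ] at hs
      have h3 := smul_left_injective ℚ c0 hs
      have h4 : (r : ℚ) = 1 := by field_simp at h3; linarith
      exact hr.one_lt.ne' (by exact_mod_cast h4)
  have hu0 : eps p (ρ u) = 0 := by
    have hi := eps_idem hp.ne_zero (rho_pow (ρ := ρ) hu)
    have h2 : Commute (eps p (ρ u)) (ρ h) := by
      have := conj_eps_rho (ρ := ρ) (p := p) h u
      rw [eps_eq hp ρ hu hk (by simpa using u1)] at this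
      rw [Commute, SemiconjBy, ← this, mul_assoc, rho_inv, mul_one, this]
    have := key (1 - eps p (ρ u))
      (by rw [sub_mul, one_mul, mul_sub, mul_one, hi, sub_self, sub_zero])
      (sub_ne_zero.2 (eps_ne_one (rho_pow hu) (rho_ne hρ u1)).symm)
      ((Commute.one_left _).sub_left (commute_eps (Commute.refl _)).symm)
      ((Commute.one_left _).sub_left h2) (by rw [sub_mul, one_mul, hi, sub_self])
    simpa using this
  have hI : Irr ρ := fun c hc hg => by
    by_cases c0 : c = 0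
    · exact Or.inl c0
    · exact Or.inr (key c hc c0 (hg u).symm (hg h).symm (by rw [hu0, mul_zero]))
  have hh' : lift ρ h ^ r = 1 := by rw [← map_pow, hh, map_one]
  have h2 := half hI (eps_idem hr.ne_zero hh') (by
    intro h0
    have h3 : eps r (ρ h) = 0 := (coe_eps (lift ρ h)).symm.trans (congrArg Subtype.val h0)
    have hs := hsum 1 (Commute.one_left _) (by rw [hu0, mul_zero])
    rw [h3] at hs
    simp only [mul_zero, zero_mul, Finset.sum_const_zero] at hs
    exact one_ne_zero ((smul_eq_zero.1 hs.symm).resolve_left (mul_ne_zero (inv_ne_zero hr0) hp0)))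
    (eps_ne_one hh' fun e => rho_ne hρ h1 (congrArg Subtype.val e))
  obtain ⟨b', hb'⟩ := frob_sum hp hr (lift ρ) hu hh hk hne
  have hu0' : eps p (lift ρ u) = 0 := Subtype.ext ((coe_eps _).trans hu0)
  have h3 := congrArg (tr ρ) hb'
  have h4 : ∀ i : ℕ, tr ρ (lift ρ (u ^ i) * eps r (lift ρ h) * lift ρ (u ^ i)⁻¹) =
      tr ρ (eps r (lift ρ h)) := fun i => by
    rw [tr_comm, ← mul_assoc, ← map_mul, inv_mul_cancel, map_one, one_mul]
  rw [hu0', zero_mul, add_zero, map_sum, map_smul] at h3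
  simp only [h4] at h3
  rw [Finset.sum_const, Finset.card_range, ← h2, smul_eq_mul, nsmul_eq_mul] at h3
  have h5 := tr_one_pos (ρ := ρ)
  have h6 : tr ρ (eps r (lift ρ h)) ≠ 0 := by intro h; rw [h] at h2; linarith
  have h7 : (r : ℚ) = 2 := by field_simp at h3; linarith
  exact hr2 (by exact_mod_cast h7)

open TensorProduct in
theorem isCharacter_tr (ρ : G →* M2 D) : IsCharacter G fun g => (tr ρ (lift ρ g) : ℂ) := by
  let σ : Representation ℂ G (ℂ ⊗[ℚ] alg ρ) :=
    ((Module.End.baseChangeHom ℚ ℂ (alg ρ)).toMonoidHom.comp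
      (Algebra.lmul ℚ (alg ρ)).toMonoidHom).comp (lift ρ)
  have := H11.isCharacter_character σ
  convert this using 2 with g
  exact (LinearMap.trace_baseChange (Algebra.lmul ℚ (alg ρ) (lift ρ g)) ℂ).symm

/-- the trace of an element of order three -/
theorem tr_three (hI : Irr ρ) (hρ : Function.Injective ρ) {g : G} (hg : g ^ 3 = 1) (g1 : g ≠ 1) :
    tr ρ 1 ≤ 2 * (|tr ρ (lift ρ g)| + |tr ρ (lift ρ (g ^ 2))|) := by
  have hg' : lift ρ g ^ 3 = 1 := by rw [← map_pow, hg, map_one]
  have h1 := congrArg (tr ρ) (smul_eps (a := lift ρ g) three_ne_zero)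
  simp only [Finset.sum_range_succ, Finset.range_zero, Finset.sum_empty, zero_add, pow_zero, pow_one,
    map_add, map_smul, smul_eq_mul, Nat.cast_ofNat] at h1
  rw [← map_pow] at h1
  have h5 := tr_one_pos (ρ := ρ)
  have a1 := le_abs_self (tr ρ (lift ρ g))
  have a2 := le_abs_self (tr ρ (lift ρ (g ^ 2)))
  have a3 := neg_abs_le (tr ρ (lift ρ g))
  have a4 := neg_abs_le (tr ρ (lift ρ (g ^ 2)))
  by_cases h0 : eps 3 (lift ρ g) = 0
  · rw [h0, map_zero] at h1
    linarith
  · have := half hI (eps_idem three_ne_zero hg') h0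
      (eps_ne_one hg' fun e => rho_ne hρ g1 (congrArg Subtype.val e))
    linarith

end Cfsg.Agent.H41.Q2
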