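import Cfsg.Agent.H41.Q2C
import Cfsg.Agent.H11.Kernel
import Cfsg.Agent.H77.SL2Table

/-!
# Finite subgroups of `GL₂` over a division ring of characteristic zero: the groups `SL₂(q)`
-/

set_option autoImplicit false

namespace Cfsg.Agent.H41.Q2

open H77

section Bound

variable {F : Type*} [Field F] [Fintype F] [DecidableEq F]

omit [Fintype F] [DecidableEq F] in
theorem split_conj {g : SL2 F} (h : IsSplit (g : H77.M2 F)) :
    ∃ a : Fˣ, a ^ 2 ≠ 1 ∧ IsConj g (uts a 0) := by
  obtain ⟨a, d, had, ht, hd⟩ := id h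
  rw [g.det_coe] at hd
  have ha : a ≠ 0 := by rintro rfl; simp at hd
  have hd' : d = a⁻¹ := eq_inv_of_mul_eq_one_right hd.symm
  refine ⟨Units.mk0 a ha, fun e => had ?_, sl_isConj_of_isSplit h ?_⟩
  · have := congrArg Units.val (units_eq_inv_iff.2 e)
    rw [hd']
    simpa using this
  · rw [trace_uts, ht, hd']
    simp

omit [Fintype F] [DecidableEq F] in
theorem cf_conj {χ : SL2 F → ℂ} (h : IsClassFunction (SL2 F) χ) {a b : SL2 F} (hc : IsConj a b) :
    χ a = χ b := by
  obtain ⟨c, rfl⟩ := isConj_iff.1 hc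
  exact (h a c).symm

theorem sR_le (α : MulChar F ℂ) {g : SL2 F} (hg : IsReg g) : ‖sR α g‖ ≤ 2 := by
  rcases hg.split_or_noEig with h | h
  · obtain ⟨a, ha, hc⟩ := split_conj h
    rw [cf_conj (classFun_sR α) hc, sR_split α ha]
    refine (norm_add_le _ _).trans ?_
    rw [norm_mulChar, norm_mulChar]
    norm_num
  · rw [sR_noEig α h]
    simp

theorem sSt_le {g : SL2 F} (hg : IsReg g) : ‖sSt F g‖ ≤ 1 := by
  rcases hg.split_or_noEig with h | h
  · obtain ⟨a, ha, hc⟩ := split_conj h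
    rw [cf_conj classFun_sSt hc, sSt_split ha]
    simp
  · rw [sSt_noEig h]
    simp

variable {K : Type*} [Field K] [Fintype K] [DecidableEq K] [Algebra F K]
  [Algebra.IsQuadraticExtension F K]

theorem norm_hom {A : Type*} [Group A] [Finite A] (θ : A →* ℂˣ) (t : A) : ‖(θ t : ℂ)‖ = 1 := by
  refine Complex.norm_eq_one_of_pow_eq_one (n := Nat.card A) ?_ Nat.card_pos.ne'
  rw [← Units.val_pow_eq_pow_val, ← map_pow, pow_card_eq_one', map_one, Units.val_one]

theorem sD_le (θ : normOne F K →* ℂˣ) {g : SL2 F} (hg : IsReg g) : ‖sD θ g‖ ≤ 2 := by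
  rcases hg.split_or_noEig with h | h
  · rw [sD_split θ h]
    simp
  · obtain ⟨t, ht, hc⟩ := exists_isConj_torS K h
    rw [← cf_conj (classFun_sD θ) hc, sD_torS θ ht, norm_neg]
    refine (norm_add_le _ _).trans ?_
    rw [norm_hom, norm_hom]
    norm_num

omit [Fintype K] [DecidableEq K] in
theorem reg_le {χ : SL2 F → ℂ} (hχ : IsIrrCharacter (SL2 F) χ) (h1 : χ ≠ fun _ => 1) {g : SL2 F}
    (hg : IsReg g) : ((Fintype.card F : ℝ) - 1) * ‖χ g‖ ≤ 2 * (χ 1).re := by
  classical
  have := Fintype.ofFinite (QExt F)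
  have hq : (1 : ℝ) ≤ Fintype.card F := by exact_mod_cast Fintype.card_pos
  have hn := norm_nonneg (χ g)
  have hh : ∀ {φ χ' : SL2 F → ℂ}, Halves φ χ χ' → 2 * ‖χ g‖ = ‖φ g‖ ∧ 2 * (χ 1).re = (φ 1).re := by
    intro φ χ' h
    rw [← h.two_mul_of_isReg hg, ← h.two_mul_one]
    simp
  rcases sl_irr_cases (QExt F) hχ with h | rfl | ⟨α, -, rfl⟩ | ⟨θ, -, rfl⟩ | ⟨-, α, χ', -, -, h⟩ |
    ⟨-, θ, χ', -, -, h⟩
  · exact absurd h h1
  · have := sSt_le hg
    rw [sSt_one, Complex.natCast_re]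
    nlinarith
  · have := sR_le α hg
    rw [sR_one]
    simp only [Complex.add_re, Complex.natCast_re, Complex.one_re]
    nlinarith
  · have := sD_le θ hg
    rw [sD_one]
    simp only [Complex.sub_re, Complex.natCast_re, Complex.one_re]
    nlinarith
  · have := sR_le α hg
    obtain ⟨a, b⟩ := hh h
    rw [b, sR_one]
    simp only [Complex.add_re, Complex.natCast_re, Complex.one_re]
    nlinarith
  · have := sD_le θ hg
    obtain ⟨a, b⟩ := hh h
    rw [b, sD_one]
    simp only [Complex.sub_re, Complex.natCast_re, Complex.one_re]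
    nlinarith

omit [Fintype K] [DecidableEq K] in
theorem char_le {χ : SL2 F → ℂ} (hχ : IsCharacter (SL2 F) χ) {g : SL2 F} (hg : IsReg g) (z : SL2 F) :
    ((Fintype.card F : ℝ) - 1) * ‖χ g‖ ≤
      2 * (χ 1).re + Fintype.card F * ((χ 1).re + (χ z).re) := by
  have hq : (1 : ℝ) ≤ Fintype.card F := by exact_mod_cast Fintype.card_pos
  refine H11.isCharacter_induction (P := fun χ : SL2 F → ℂ => ((Fintype.card F : ℝ) - 1) * ‖χ g‖ ≤
      2 * (χ 1).re + Fintype.card F * ((χ 1).re + (χ z).re)) (by simp) (fun χ h => ?_)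
    (fun χ ψ _ _ a b => ?_) hχ
  · by_cases h1 : χ = fun _ => 1
    · subst h1
      simp only [norm_one, Complex.one_re]
      linarith
    · have h2 := reg_le h h1 hg
      have h3 := H11.norm_apply_le (H11.isCharacter_of_irr h) z
      have h4 := (neg_le_abs _).trans (Complex.abs_re_le_norm (χ z))
      nlinarith
  · simp only [Pi.add_apply, Complex.add_re]
    have := norm_add_le (χ g) (ψ g)
    nlinarith

end Bound

variable {D : Type*} [DivisionRing D] [CharZero D] {G : Type*} [Group G] [Finite G] {ρ : G →* M2 D}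

/-- an element of order three -/
def g3 (F : Type*) [Field F] : SL2 F := ⟨!![0, -1; 1, -1], by simp [Matrix.det_fin_two]⟩

theorem g3_sq (F : Type*) [Field F] : ((g3 F ^ 2 : SL2 F) : H77.M2 F) = !![-1, 1; -1, 0] := by
  rw [sq, Matrix.SpecialLinearGroup.coe_mul]
  simp [g3]

theorem g3_cube (F : Type*) [Field F] : g3 F ^ 3 = 1 := by
  apply Subtype.ext
  rw [pow_succ, Matrix.SpecialLinearGroup.coe_mul, g3_sq]
  simp [g3, Matrix.one_fin_two]

theorem sl2_le {F : Type*} [Field F] [Fintype F] (h3 : (3 : F) ≠ 0) (η : SL2 F →* G) (hI : Irr ρ)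
    (hρ : Function.Injective ρ) {z : SL2 F} (hz : ρ (η z) = -1) (hg : η (g3 F) ≠ 1) :
    Fintype.card F ≤ 9 := by
  classical
  have hθ := H11.isCharacter_comp (isCharacter_tr ρ) η
  have r1 : IsReg (g3 F) := by
    intro h
    apply h3
    simp only [g3, Matrix.trace_fin_two_of] at h
    linear_combination -h
  have r2 : IsReg (g3 F ^ 2) := by
    intro h
    apply h3
    simp only [g3_sq, Matrix.trace_fin_two_of] at h
    linear_combination -h
  have h1 := char_le hθ r1 z
  have h2 := char_le hθ r2 z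
  have hz' : lift ρ (η z) = -1 := Subtype.ext hz
  simp only [hz', map_one, map_neg, Complex.norm_ratCast, Complex.ratCast_re, Rat.cast_neg,
    add_neg_cancel, mul_zero, add_zero, Complex.neg_re] at h1 h2
  have h4 := tr_three hI hρ (g := η (g3 F)) (by rw [← map_pow, g3_cube, map_one]) hg
  rw [← map_pow] at h4
  have h5 : ((tr ρ 1 : ℚ) : ℝ) ≤ 2 * (|((tr ρ (lift ρ (η (g3 F))) : ℚ) : ℝ)| +
      |((tr ρ (lift ρ (η (g3 F ^ 2))) : ℚ) : ℝ)|) := by exact_mod_cast h4
  have h6 : (0 : ℝ) < ((tr ρ 1 : ℚ) : ℝ) := by exact_mod_cast tr_one_pos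
  have hq : (1 : ℝ) ≤ Fintype.card F := by exact_mod_cast Fintype.card_pos
  have h7 : (Fintype.card F : ℝ) ≤ 9 := by nlinarith
  exact_mod_cast h7

end Cfsg.Agent.H41.Q2
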