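import Cfsg.Agent.H41.Q2C
import Cfsg.Agent.H8.Tate
import Cfsg.Agent.H9.SelfCent
import Cfsg.Agent.H58.Simple
import Cfsg.Agent.S0253
import Cfsg.Agent.S0493
import Cfsg.Agent.S0494
import Cfsg.Agent.S4294

/-!
# Finite subgroups of `GL₂` over a division ring of characteristic zero: the reduction
-/

set_option autoImplicit false

namespace Cfsg.Agent.H41.Q2

open Subgroup
open scoped commutatorElement

variable {D : Type*} [DivisionRing D] [CharZero D] {H : Type*} [Group H] [Finite H]
  {S : Type*} [Group S] {ρ : H →* M2 D} {σ : H →* S} {p : ℕ}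

theorem simple_center (hS : IsSimpleGroup S) (hna : ¬ IsMulCommutative S) : center S = ⊥ := by
  rcases hS.eq_bot_or_eq_top_of_normal (center S) inferInstance with h | h
  · exact h
  · exact absurd ⟨⟨fun a b => (mem_center_iff.1 (h.ge (mem_top b)) a)⟩⟩ hna

theorem simple_perfect (hS : IsSimpleGroup S) (hna : ¬ IsMulCommutative S) : Group.IsPerfect S := by
  rcases hS.eq_bot_or_eq_top_of_normal (commutator S) inferInstance with h | h
  · exact absurd ⟨⟨fun a b => commutatorElement_eq_one_iff_mul_comm.1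
      (mem_bot.1 (h.le (commutator_mem_commutator (mem_top a) (mem_top b))))⟩⟩ hna
  · exact ⟨h⟩

theorem a5_of_le [Finite S] (hS : IsSimpleGroup S) (hna : ¬ IsMulCommutative S) (h : Nat.card S ≤ 60) :
    Nonempty (S ≃* alternatingGroup (Fin 5)) :=
  S0494.result (S0493.result (fun _ => hna inferInstance) (by omega))

omit [Finite H] in
theorem cyc_center [Group.IsPerfect H] (A : Subgroup H) [A.Normal] [IsCyclic A] : A ≤ center H := by
  have hcomm : ∀ a b : MulAut A, a * b = b * a := fun a b =>
    (IsCyclic.mulAutMulEquiv A).injective (by rw [map_mul, map_mul, mul_comm])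
  have : _root_.commutator H ≤ (MulAut.conjNormal (H := A)).ker := by
    rw [_root_.commutator, commutator_le]
    intro g _ k _
    rw [MonoidHom.mem_ker, map_commutatorElement, commutatorElement_eq_one_iff_mul_comm]
    exact hcomm _ _
  intro a ha
  rw [mem_center_iff]
  intro g
  have h1 := MonoidHom.mem_ker.1 (this (Group.IsPerfect.mem_commutator (g := g)))
  have h2 := congrArg (fun u : MulAut A => ((u ⟨a, ha⟩ : A) : H)) h1
  change g * a * g⁻¹ = a at h2
  exact mul_inv_eq_iff_eq_mul.1 h2

omit [Finite H] in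
theorem no_eps [Group.IsPerfect H] (hI : Irr ρ) (hρ : Function.Injective ρ) (hp : p ≠ 0) {x : H}
    (hx : x ^ p = 1) (x1 : x ≠ 1) (hc : ∀ g, x * (g * x * g⁻¹) = g * x * g⁻¹ * x) :
    eps p (ρ x) = 0 := by
  by_contra h0
  let C : Subgroup H :=
    { carrier := {g | ρ g * eps p (ρ x) = eps p (ρ x) * ρ g}
      mul_mem' := fun {a b} ha hb => by
        simp only [Set.mem_ofPred_eq] at ha hb ⊢
        rw [map_mul, mul_assoc, hb, ← mul_assoc, ha, mul_assoc]
      one_mem' := by simp
      inv_mem' := fun {a} ha => by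
        simp only [Set.mem_ofPred_eq] at ha ⊢
        calc ρ a⁻¹ * eps p (ρ x) = ρ a⁻¹ * (eps p (ρ x) * ρ a) * ρ a⁻¹ := by
              rw [mul_assoc, mul_assoc, rho_inv', mul_one]
          _ = _ := by rw [← ha, ← mul_assoc, rho_inv, one_mul] }
  have hsq : ∀ g, g ^ 2 ∈ C := fun g => sq_comm_eps hp hρ hx x1 h0 (hc g)
  have htop : commutator H ≤ C := by
    rw [_root_.commutator, commutator_le]
    intro a _ b _
    have : ⁅a, b⁆ = a ^ 2 * (a⁻¹ * b) ^ 2 * b⁻¹ ^ 2 := by
      simp only [commutatorElement_def, sq]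
      group
    rw [this]
    exact C.mul_mem (C.mul_mem (hsq _) (hsq _)) (hsq _)
  rcases hI _ (eps_idem hp (rho_pow hx)) (fun g => htop Group.IsPerfect.mem_commutator) with h | h
  · exact h0 h
  · exact eps_ne_one (rho_pow hx) (rho_ne hρ x1) h

/-- abelian normal `p`-subgroups are central -/
theorem ab_central [Group.IsPerfect H] [Fact p.Prime] (hI : Irr ρ) (hρ : Function.Injective ρ)
    (B : Subgroup H) [hB : B.Normal] (hBp : IsPGroup p B) (hc : ∀ a ∈ B, ∀ b ∈ B, a * b = b * a) :
    B ≤ center H := by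
  have hp : p.Prime := Fact.out
  have : IsCyclic B := by
    by_contra h
    have hcomm : IsMulCommutative (⊤ : Subgroup B) :=
      ⟨⟨fun a b => Subtype.ext (Subtype.ext (hc _ a.1.2 _ b.1.2))⟩⟩
    obtain ⟨E, -, -, hcard, hE⟩ := H9.exists_normal_elementary_sq hBp (A := ⊤) hcomm
      fun h' => h (isCyclic_of_surjective topEquiv topEquiv.surjective)
    have h1 := card_le_of_eps hp ((ρ.comp B.subtype).comp E.subtype) (fun x => Subtype.ext (hE x x.2))
      fun x hx => no_eps hI hρ hp.ne_zero (congrArg Subtype.val (hE x x.2))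
        (fun e => hx (Subtype.ext (Subtype.ext e))) fun g => hc _ x.1.2 _ (hB.conj_mem _ x.1.2 g)
    rw [hcard] at h1
    have := hp.one_lt
    nlinarith
  exact cyc_center B

omit [Finite H] in
theorem central_inv [Group.IsPerfect H] (hI : Irr ρ) (hρ : Function.Injective ρ) {z : H}
    (hz : z ∈ center H) (h2 : z ^ 2 = 1) : ρ z = 1 ∨ ρ z = -1 := by
  by_cases z1 : z = 1
  · exact Or.inl (by rw [z1, map_one])
  have h := no_eps hI hρ two_ne_zero h2 z1 fun g => (mem_center_iff.1 hz _).symm
  rw [eps_two, smul_eq_zero] at h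
  exact Or.inr (eq_neg_of_add_eq_zero_right (h.resolve_left (by norm_num)))

/-- a minimal preimage -/
structure Min (ρ : H →* M2 D) (σ : H →* S) : Prop where
  inj : Function.Injective ρ
  surj : Function.Surjective σ
  min : ∀ K : Subgroup H, K.map σ = ⊤ → K = ⊤
  simple : IsSimpleGroup S
  nonab : ¬ IsMulCommutative S

namespace Min

omit [Finite H] [CharZero D] in
theorem normal_le (h : Min ρ σ) (N : Subgroup H) [hN : N.Normal] : N = ⊤ ∨ N ≤ σ.ker := by
  rcases h.simple.eq_bot_or_eq_top_of_normal (N.map σ) (hN.map σ h.surj) with e | e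
  · exact Or.inr ((map_eq_bot_iff N).1 e)
  · exact Or.inl (h.min N e)

omit [Finite H] [CharZero D] in
theorem perfect (h : Min ρ σ) : Group.IsPerfect H := by
  refine ⟨h.min _ ?_⟩
  rw [_root_.commutator, map_commutator, ← MonoidHom.range_eq_map, MonoidHom.range_eq_top.2 h.surj]
  exact (simple_perfect h.simple h.nonab).commutator_eq_top

omit [Finite H] [CharZero D] in
theorem center_le (h : Min ρ σ) : center H ≤ σ.ker := by
  intro z hz
  have : σ z ∈ center S := mem_center_iff.2 fun g => by
    obtain ⟨g, rfl⟩ := h.surj g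
    rw [← map_mul, ← map_mul, mem_center_iff.1 hz]
  rwa [simple_center h.simple h.nonab] at this

omit [CharZero D] in
theorem red (h : Min ρ σ) (hI : ¬ Irr ρ) : Nonempty (S ≃* alternatingGroup (Fin 5)) := by
  have : Finite S := Finite.of_surjective σ h.surj
  unfold Irr at hI
  push Not at hI
  obtain ⟨e, he, hc, e0, e1⟩ := hI
  obtain ⟨c1, c2, hj⟩ := corner ρ he e0 e1 hc
  obtain ⟨c, hc⟩ : ∃ c : H →* D, c.toHomUnits.ker ≤ σ.ker := by
    rcases h.normal_le c1.toHomUnits.ker with a | a
    · rcases h.normal_le c2.toHomUnits.ker with b | b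
      · refine absurd ⟨⟨fun x y => ?_⟩⟩ h.nonab
        obtain ⟨x, rfl⟩ := h.surj x
        have : x = 1 := h.inj (hj x 1
          ((congrArg Units.val (MonoidHom.mem_ker.1 (a.ge (mem_top x)))).trans (map_one c1).symm)
          ((congrArg Units.val (MonoidHom.mem_ker.1 (b.ge (mem_top x)))).trans (map_one c2).symm))
        simp [this]
      · exact ⟨c2, b⟩
    · exact ⟨c1, a⟩
  let τ : c.toHomUnits.range →* S := (QuotientGroup.lift _ σ hc).comp
    (QuotientGroup.quotientKerEquivRange c.toHomUnits).symm.toMonoidHom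
  have hτ : Function.Surjective τ :=
    (QuotientGroup.lift_surjective_of_surjective _ σ h.surj hc).comp (MulEquiv.surjective _)
  have hns : ¬ Group.IsSolvable c.toHomUnits.range := fun hs =>
    h.nonab ⟨⟨h.simple.comm_iff_isSolvable.2 (Group.isSolvable_of_surjective hτ)⟩⟩
  obtain ⟨f⟩ := S4294.result _ hns
  obtain ⟨f5⟩ := S0253.aux
  let τ' := τ.comp f.symm.toMonoidHom
  have hτ' : Function.Surjective τ' := hτ.comp f.symm.surjective
  have hk : center _ ≤ τ'.ker := by
    intro z hz
    have : τ' z ∈ center S := mem_center_iff.2 fun g => by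
      obtain ⟨g, rfl⟩ := hτ' g
      rw [← map_mul, ← map_mul, mem_center_iff.1 hz]
    rwa [simple_center h.simple h.nonab] at this
  have h1 := Nat.card_le_card_of_surjective _
    (QuotientGroup.lift_surjective_of_surjective _ τ' hτ' hk)
  refine a5_of_le h.simple h.nonab (h1.trans_eq ((Nat.card_congr f5.toEquiv).trans ?_))
  rw [Nat.card_eq_fintype_card, card_alternatingGroup]
  rfl

theorem two (h : Min ρ σ) (hI : Irr ρ) : IsPGroup 2 σ.ker := by
  have := h.perfect
  have h1 : ∀ q : ℕ, q.Prime → q ∣ Nat.card σ.ker → q = 2 := by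
    intro q hq hd
    by_contra h2
    have := Fact.mk hq
    let P : Sylow q σ.ker := default
    have hn : normalizer (P.map σ.ker.subtype : Set H) = ⊤ := by
      apply h.min
      have := congrArg (Subgroup.map σ) P.normalizer_sup_eq_top
      rwa [Subgroup.map_sup, map_ker_self, sup_bot_eq, ← MonoidHom.range_eq_map,
        MonoidHom.range_eq_top.2 h.surj] at this
    have hN : (P.map σ.ker.subtype).Normal := normalizer_eq_top_iff.1 hn
    have hP : IsPGroup q (P.map σ.ker.subtype) := P.isPGroup'.map _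
    have hab : ∀ B : Subgroup H, IsPGroup q B → ∀ a ∈ B, ∀ b ∈ B, a * b = b * a := fun B hB a ha b hb =>
      congrArg Subtype.val (odd_comm (ρ := ρ.comp B.subtype) h2 (h.inj.comp B.subtype_injective) hB
        ⟨a, ha⟩ ⟨b, hb⟩)
    have hc := ab_central hI h.inj _ hP (hab _ hP)
    obtain ⟨Q, hQ⟩ := hP.exists_le_sylow
    have h3 : ⁅(Q : Subgroup H), (Q : Subgroup H)⁆ = ⊥ := by
      rw [eq_bot_iff, commutator_le]
      intro a ha b hb
      exact commutatorElement_eq_one_iff_mul_comm.2 (hab _ Q.isPGroup' a ha b hb)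
    have h4 : P.map σ.ker.subtype = ⊥ := by
      rw [eq_bot_iff, ← h3]
      exact fun x hx => H8.center_inf_commutator_inf_sylow_le Q
        ⟨⟨hc hx, Group.IsPerfect.mem_commutator⟩, hQ hx⟩
    exact P.ne_bot_of_dvd_card hd ((map_eq_bot_iff_of_injective _ σ.ker.subtype_injective).1 h4)
  exact IsPGroup.of_card (Nat.eq_prime_pow_of_unique_prime_dvd Nat.card_pos.ne' fun {q} => h1 q)

end Min

end Cfsg.Agent.H41.Q2
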