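import Cfsg.Agent.H41.Q2E

/-!
# Finite subgroups of `GL₂` over a division ring of characteristic zero: non-central kernel
-/

set_option autoImplicit false

namespace Cfsg.Agent.H41.Q2

open Subgroup
open scoped commutatorElement

variable {D : Type*} [DivisionRing D] [CharZero D] {H : Type*} [Group H]
  {S : Type*} [Group S] {ρ : H →* M2 D} {σ : H →* S} {N : Subgroup H}

/-- the projection onto the central quotient -/
abbrev pz (H : Type*) [Group H] : H →* H ⧸ center H := QuotientGroup.mk' (center H)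

theorem pz_eq_one {x : H} : pz H x = 1 ↔ x ∈ center H := QuotientGroup.eq_one_iff x

/-- the preimage of the involutions in the centre of `N` modulo the centre -/
def Ys (N : Subgroup H) : Subgroup H where
  carrier := {y | y ∈ N ∧ pz H y ^ 2 = 1 ∧ ∀ n ∈ N, Commute (pz H y) (pz H n)}
  mul_mem' := fun {a b} ha hb => ⟨N.mul_mem ha.1 hb.1,
    by rw [map_mul, (ha.2.2 b hb.1).mul_pow, ha.2.1, hb.2.1, mul_one],
    fun n hn => by rw [map_mul]; exact (ha.2.2 n hn).mul_left (hb.2.2 n hn)⟩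
  one_mem' := ⟨N.one_mem, by simp, fun n _ => by simp⟩
  inv_mem' := fun {a} ha => ⟨N.inv_mem ha.1, by rw [map_inv, inv_pow, ha.2.1, inv_one],
    fun n hn => by rw [map_inv]; exact (ha.2.2 n hn).inv_left⟩

theorem Ys_conj [hN : N.Normal] {y : H} (hy : y ∈ Ys N) (g : H) : g * y * g⁻¹ ∈ Ys N := by
  refine ⟨hN.conj_mem y hy.1 g, ?_, fun n hn => ?_⟩
  · rw [map_mul, map_mul, map_inv, conj_pow, hy.2.1, mul_one, mul_inv_cancel]
  · have := (hy.2.2 _ (hN.conj_mem n hn g⁻¹)).eq
    simp only [map_mul, map_inv, inv_inv] at this ⊢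
    rw [Commute, SemiconjBy]
    calc pz H g * pz H y * (pz H g)⁻¹ * pz H n
        = pz H g * (pz H y * ((pz H g)⁻¹ * pz H n * pz H g)) * (pz H g)⁻¹ := by group
      _ = _ := by rw [this]; group

theorem anti [Group.IsPerfect H] (hI : Irr ρ) (hρ : Function.Injective ρ) {a b : H}
    (ha : a ∈ Ys N) (hb : b ∈ Ys N) : ρ a * ρ b = ρ b * ρ a ∨ ρ a * ρ b = -(ρ b * ρ a) := by
  have hc : ⁅a, b⁆ ∈ center H := by
    rw [← pz_eq_one, map_commutatorElement, commutatorElement_eq_one_iff_commute]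
    exact ha.2.2 b hb.1
  have h2 : a ^ 2 ∈ center H := by rw [← pz_eq_one, map_pow]; exact ha.2.1
  have h1 : a * b = ⁅a, b⁆ * (b * a) := by simp [commutatorElement_def, mul_assoc]
  generalize ⁅a, b⁆ = c at hc h1
  have h3 : c ^ 2 = 1 := by
    have e : b * a ^ 2 = c ^ 2 * (b * a ^ 2) := by
      calc b * a ^ 2 = a * (a * b) := by rw [mem_center_iff.1 h2, sq, mul_assoc]
        _ = c * (a * b) * a := by
          nth_rewrite 1 [h1]
          rw [← mul_assoc, mem_center_iff.1 hc]
          simp only [mul_assoc]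
        _ = _ := by rw [h1]; simp only [sq, mul_assoc]
    exact mul_eq_right.1 e.symm
  have h4 := congrArg ρ h1
  simp only [map_mul] at h4
  rcases central_inv hI hρ hc h3 with e | e
  · left
    rw [h4, e, one_mul]
  · right
    rw [h4, e, neg_mul, one_mul]

theorem exists_good [Finite H] [Group.IsPerfect H] (hI : Irr ρ) (hρ : Function.Injective ρ) [N.Normal]
    (hN : IsPGroup 2 N) (hc : ¬ N ≤ center H) :
    ∃ x ∈ Ys N, x ∉ center H ∧ (ρ x * ρ x = 1 ∨ ρ x * ρ x = -1) := by
  obtain ⟨y, hy, y1⟩ : ∃ y ∈ Ys N, y ∉ center H := by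
    have hM : IsPGroup 2 (N.map (pz H)) := hN.map _
    have : Nontrivial (N.map (pz H)) := by
      rw [nontrivial_iff_ne_bot, Ne, Subgroup.map_eq_bot_iff, QuotientGroup.ker_mk']
      exact hc
    have := hM.center_nontrivial
    obtain ⟨k, hk, e⟩ := (hM.to_subgroup (center _)).nontrivial_iff_card.1 this
    obtain ⟨⟨⟨_, y, hy, rfl⟩, hz⟩, ho⟩ := exists_prime_orderOf_dvd_card' (G := center (N.map (pz H))) 2
      (e ▸ dvd_pow_self 2 hk.ne')
    rw [← orderOf_coe, ← orderOf_coe] at ho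
    refine ⟨y, ⟨hy, ho ▸ pow_orderOf_eq_one _, fun n hn => ?_⟩, fun h => ?_⟩
    · exact (congrArg Subtype.val (mem_center_iff.1 hz ⟨_, n, hn, rfl⟩)).symm
    · simp only [pz_eq_one.2 h, orderOf_one] at ho
      omega
  obtain ⟨g, hg⟩ : ∃ g, g * y * g⁻¹ * y⁻¹ ∉ center H := by
    by_contra h
    push Not at h
    have : pz H y ∈ center (H ⧸ center H) := mem_center_iff.2 fun g => by
      obtain ⟨g, rfl⟩ := QuotientGroup.mk'_surjective _ g
      have := pz_eq_one.2 (h g)
      simp only [map_mul, map_inv] at this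
      exact mul_inv_eq_iff_eq_mul.1 (mul_inv_eq_one.1 this)
    rw [Group.IsPerfect.center_quotient_center_eq_bot] at this
    exact y1 (pz_eq_one.1 this)
  have hy' := Ys_conj hy g
  refine ⟨_, mul_mem hy' (inv_mem hy), hg, ?_⟩
  have h2 : y ^ 2 ∈ center H := by rw [← pz_eq_one, map_pow]; exact hy.2.1
  have h3 : ρ (g * y * g⁻¹) * ρ (g * y * g⁻¹) * (ρ y⁻¹ * ρ y⁻¹) = 1 := by
    rw [← map_mul, ← map_mul, ← map_mul, ← sq, conj_pow, mem_center_iff.1 h2, ← map_one ρ]
    congr 1
    simp only [sq]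
    group
  rw [map_mul]
  have h4 := anti hI hρ (inv_mem hy) hy'
  generalize ρ (g * y * g⁻¹) = a at h3 h4
  generalize ρ y⁻¹ = b at h3 h4
  have h5 : a * b * (a * b) = a * (b * a) * b := by simp only [mul_assoc]
  rcases h4 with e | e
  · left
    rw [h5, e, ← h3]
    simp only [mul_assoc]
  · right
    rw [h5, e, ← h3]
    simp only [mul_assoc, mul_neg, neg_mul]

omit [CharZero D] in
theorem five_id {a b c d e f : M2 D} (ha : a * a = 1) (hb : b * b = 1) (hc : c * c = 1)
    (hd : d * d = 1) (he : e * e = 1) (ab : b * a = -(a * b)) (ac : c * a = -(a * c))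
    (ad : d * a = -(a * d)) (ae : e * a = -(a * e)) (af : f * a = -(a * f)) (bc : c * b = -(b * c))
    (bd : d * b = -(b * d)) (be : e * b = -(b * e)) (bf : f * b = -(b * f)) (cd : d * c = -(c * d))
    (ce : e * c = -(c * e)) (cf : f * c = -(c * f)) (de : e * d = -(d * e)) (df : f * d = -(d * f))
    (ef : f * e = -(e * f)) :
    a * b * c * d * e * (a * b * c * d * e) = 1 ∧ a * b * c * d * e * a = a * (a * b * c * d * e) ∧
      a * b * c * d * e * b = b * (a * b * c * d * e) ∧
      f * (a * b * c * d * e) = -(a * b * c * d * e * f) := by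
  have k : ∀ {x y : M2 D}, y * x = -(x * y) → ∀ t, y * (x * t) = -(x * (y * t)) := fun h t => by
    rw [← mul_assoc, h, neg_mul, mul_assoc]
  have l : ∀ {x : M2 D}, x * x = 1 → ∀ t, x * (x * t) = t := fun h t => by rw [← mul_assoc, h, one_mul]
  simp only [mul_assoc, mul_neg, neg_neg, k ab, k ac, k ad, k ae, k af, k bc, k bd, k be, k bf, k cd,
    k ce, k cf, k de, k df, ae, be, ef, l ha, l hb, l hc, l hd, he,
    and_self]

omit [CharZero D] in
theorem three_id {a b c f : M2 D} (ha : a * a = -1) (hb : b * b = -1) (hc : c * c = -1)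
    (ab : b * a = -(a * b)) (ac : c * a = -(a * c)) (af : f * a = -(a * f)) (bc : c * b = -(b * c))
    (bf : f * b = -(b * f)) (cf : f * c = -(c * f)) :
    a * b * c * (a * b * c) = 1 ∧ f * (a * b * c) = -(a * b * c * f) := by
  have k : ∀ {x y : M2 D}, y * x = -(x * y) → ∀ t, y * (x * t) = -(x * (y * t)) := fun h t => by
    rw [← mul_assoc, h, neg_mul, mul_assoc]
  have l : ∀ {x : M2 D}, x * x = -1 → ∀ t, x * (x * t) = -t := fun h t => by
    rw [← mul_assoc, h, neg_mul, one_mul]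
  simp only [mul_assoc, mul_neg, neg_neg, k ab, k ac, k af, k bc, k bf, cf, l ha, l hb, hc, and_self]

theorem not_anti {s f : H} (hs : s ∈ center H) (h : ρ f * ρ s = -(ρ s * ρ f)) : False := by
  rw [← map_mul, ← map_mul, mem_center_iff.1 hs] at h
  have h1 : (2 : ℚ) • ρ (s * f) = 0 := by rw [two_smul]; exact add_eq_zero_iff_eq_neg.2 h
  have h2 := (smul_eq_zero.1 h1).resolve_left two_ne_zero
  have := rho_inv (ρ := ρ) (s * f)
  rw [h2, mul_zero] at this
  exact zero_ne_one this

theorem pz_eq_of (hρ : Function.Injective ρ) {a b : H} (ha : ρ a * ρ a = 1) (hb : ρ b * ρ b = 1)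
    (a1 : a ∉ center H) (b1 : b ∉ center H) (hc : ρ a * ρ b = ρ b * ρ a) : pz H a = pz H b := by
  have sq1 : ∀ {a : H}, ρ a * ρ a = 1 → a ^ 2 = 1 := fun h => hρ (by rw [sq, map_mul, h, map_one])
  by_cases hab : a = b
  · rw [hab]
  rcases four hρ (sq1 ha) (sq1 hb) (fun e => a1 (e ▸ one_mem _)) (fun e => b1 (e ▸ one_mem _)) hab
    (hρ (by rw [map_mul, map_mul, hc])) with h | h | h
  · exact absurd (neg_one_central hρ h) a1
  · exact absurd (neg_one_central hρ h) b1
  · have h1 := pz_eq_one.2 (neg_one_central hρ h)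
    have h2 : pz H b * pz H b = 1 := by rw [← map_mul, ← sq, sq1 hb, map_one]
    rw [map_mul, ← h2] at h1
    exact mul_right_cancel h1

theorem index_le [Finite H] [Group.IsPerfect H] (hI : Irr ρ) (hρ : Function.Injective ρ) [N.Normal]
    (hN : IsPGroup 2 N) (hc : ¬ N ≤ center H) : ∃ K : Subgroup H, K ≠ ⊤ ∧ K.index ≤ 5 := by
  have main : ∀ x ∈ Ys N, x ∉ center H → (∀ f : Fin 6 → H, ∃ i j, i ≠ j ∧
      pz H (f i * x * (f i)⁻¹) = pz H (f j * x * (f j)⁻¹)) → ∃ K : Subgroup H, K ≠ ⊤ ∧ K.index ≤ 5 := by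
    intro x _ x1 h
    refine ⟨(centralizer {pz H x}).comap (pz H), fun e => x1 ?_, ?_⟩
    · have : pz H x ∈ center (H ⧸ center H) := mem_center_iff.2 fun g => by
        obtain ⟨g, rfl⟩ := QuotientGroup.mk'_surjective _ g
        exact (mem_centralizer_singleton_iff.1 (mem_comap.1 (e.ge (mem_top g))))
      rw [Group.IsPerfect.center_quotient_center_eq_bot] at this
      exact pz_eq_one.1 this
    · by_contra hlt
      generalize hK : (centralizer {pz H x}).comap (pz H) = K at hlt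
      have := Fintype.ofFinite (H ⧸ K)
      obtain ⟨f⟩ := Function.Embedding.nonempty_of_card_le (α := Fin 6) (β := H ⧸ K)
        (by rw [Fintype.card_fin, ← Nat.card_eq_fintype_card, ← index_eq_card]; omega)
      obtain ⟨i, j, hij, e⟩ := h fun i => (f i).out
      apply hij (f.injective ?_)
      rw [← QuotientGroup.out_eq' (f i), ← QuotientGroup.out_eq' (f j), QuotientGroup.eq]
      refine hK.le (mem_comap.2 (mem_centralizer_singleton_iff.2 ?_))
      simp only [map_mul, map_inv] at e ⊢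
      generalize pz H (f i).out = a at e
      generalize pz H (f j).out = b at e
      calc a⁻¹ * b * pz H x = a⁻¹ * (b * pz H x * b⁻¹) * b := by group
        _ = _ := by rw [← e]; group
  have hsq : ∀ (x g : H) (c : M2 D), (∀ y, c * y = y * c) → ρ x * ρ x = c →
      ρ (g * x * g⁻¹) * ρ (g * x * g⁻¹) = c := by
    intro x g c hc h
    rw [← map_mul, show g * x * g⁻¹ * (g * x * g⁻¹) = g * (x * x) * g⁻¹ by group, map_mul, map_mul, map_mul,
      h, ← hc, mul_assoc, rho_inv', mul_one]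
  have hnc : ∀ {x : H} (g : H), x ∉ center H → g * x * g⁻¹ ∉ center H := fun g h e =>
    h (by simpa [mul_assoc] using (inferInstance : (center H).Normal).conj_mem _ e g⁻¹)
  by_cases hA : ∃ x ∈ Ys N, x ∉ center H ∧ ρ x * ρ x = 1
  · obtain ⟨x, hx, x1, h1⟩ := hA
    refine main x hx x1 fun f => ?_
    by_contra hf
    push Not at hf
    obtain ⟨y, hy⟩ : ∃ y : Fin 6 → H, ∀ i, y i = f i * x * (f i)⁻¹ := ⟨_, fun _ => rfl⟩
    have hq : ∀ i, ρ (y i) * ρ (y i) = 1 := fun i => hy i ▸ hsq x (f i) 1 (by simp) h1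
    have hn : ∀ i, y i ∉ center H := fun i => hy i ▸ hnc (f i) x1
    have hY : ∀ i, y i ∈ Ys N := fun i => hy i ▸ Ys_conj hx (f i)
    simp only [← hy] at hf
    have ha : ∀ i j, i ≠ j → ρ (y i) * ρ (y j) = -(ρ (y j) * ρ (y i)) := fun i j hij =>
      (anti hI hρ (hY i) (hY j)).resolve_left fun e =>
        hf i j hij (pz_eq_of hρ (hq i) (hq j) (hn i) (hn j) e)
    obtain ⟨a, b, c, d⟩ := five_id (hq 0) (hq 1) (hq 2) (hq 3) (hq 4) (ha 1 0 (by decide))
      (ha 2 0 (by decide)) (ha 3 0 (by decide)) (ha 4 0 (by decide)) (ha 5 0 (by decide))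
      (ha 2 1 (by decide)) (ha 3 1 (by decide)) (ha 4 1 (by decide)) (ha 5 1 (by decide))
      (ha 3 2 (by decide)) (ha 4 2 (by decide)) (ha 5 2 (by decide)) (ha 4 3 (by decide))
      (ha 5 3 (by decide)) (ha 5 4 (by decide))
    rw [← map_mul, ← map_mul, ← map_mul, ← map_mul] at a b c d
    have s1 : y 0 * y 1 * y 2 * y 3 * y 4 ∉ center H := fun e => not_anti e d
    exact hf 0 1 (by decide) ((pz_eq_of hρ a (hq 0) s1 (hn 0) b).symm.trans
      (pz_eq_of hρ a (hq 1) s1 (hn 1) c))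
  · push Not at hA
    obtain ⟨x, hx, x1, h1⟩ := exists_good hI hρ hN hc
    replace h1 := h1.resolve_left (hA x hx x1)
    refine main x hx x1 fun f => ?_
    by_contra hf
    push Not at hf
    obtain ⟨y, hy⟩ : ∃ y : Fin 6 → H, ∀ i, y i = f i * x * (f i)⁻¹ := ⟨_, fun _ => rfl⟩
    have hq : ∀ i, ρ (y i) * ρ (y i) = -1 := fun i => hy i ▸ hsq x (f i) (-1) (by simp) h1
    have hY : ∀ i, y i ∈ Ys N := fun i => hy i ▸ Ys_conj hx (f i)
    simp only [← hy] at hf
    have ha : ∀ i j, i ≠ j → ρ (y i) * ρ (y j) = -(ρ (y j) * ρ (y i)) := fun i j hij =>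
      (anti hI hρ (hY i) (hY j)).resolve_left fun e => hf i j hij (by
        have h2 : y i * y j ∈ center H := by
          by_contra h3
          apply hA _ (mul_mem (hY i) (hY j)) h3
          rw [map_mul, ← (show Commute (ρ (y i)) (ρ (y j)) from e).mul_mul_mul_comm, hq, hq]
          simp
        have h3 := pz_eq_one.2 h2
        rw [map_mul, ← (hY j).2.1, sq] at h3
        exact mul_right_cancel h3)
    obtain ⟨a, d⟩ := three_id (hq 0) (hq 1) (hq 2) (ha 1 0 (by decide)) (ha 2 0 (by decide))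
      (ha 3 0 (by decide)) (ha 2 1 (by decide)) (ha 3 1 (by decide)) (ha 3 2 (by decide))
    rw [← map_mul, ← map_mul] at a d
    exact hA _ (mul_mem (mul_mem (hY 0) (hY 1)) (hY 2)) (fun e => not_anti e d) a

/-- the central situation -/
structure Cen (ρ : H →* M2 D) (σ : H →* S) : Prop extends Min ρ σ where
  irr : Irr ρ
  two : IsPGroup 2 σ.ker
  ker : σ.ker = center H

theorem Min.cen [Finite H] (h : Min ρ σ) :
    Nonempty (S ≃* alternatingGroup (Fin 5)) ∨ Cen ρ σ := by
  by_cases hI : Irr ρ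
  swap
  · exact Or.inl (h.red hI)
  by_cases hc : σ.ker ≤ center H
  · exact Or.inr ⟨h, hI, h.two hI, le_antisymm hc h.center_le⟩
  left
  have := h.perfect
  have : Finite S := Finite.of_surjective σ h.surj
  obtain ⟨K, hK, hi⟩ := index_le hI h.inj (h.two hI) hc
  have := h.simple
  have h1 := H58.two_mul_card_dvd_index_factorial h.nonab (H := K.map σ) fun e => hK (h.min K e)
  have h2 : (K.map σ).index ≤ 5 :=
    (Nat.le_of_dvd (Nat.pos_of_ne_zero index_ne_zero_of_finite) (K.index_map_dvd h.surj)).trans hi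
  have h3 := Nat.le_of_dvd (Nat.factorial_pos 5) (h1.trans (Nat.factorial_dvd_factorial h2))
  refine a5_of_le h.simple h.nonab ?_
  simp only [Nat.factorial] at h3
  omega

end Cfsg.Agent.H41.Q2
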