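import Mathlib
import Cfsg.Agent.H41.RuD
import Cfsg.Agent.H8.SylowIn

/-!
# The double cover of the Rudvalis group: involutions and fourth powers
-/

set_option autoImplicit false
set_option maxRecDepth 1000000

namespace Cfsg.Agent.H41.Ru2

open Cfsg.Agent.H42 Cfsg.Agent.H46 Cfsg.Agent.H46.Ru Cfsg.Agent.H74 Cfsg.Spor Subgroup

/-- The generators. -/
noncomputable def x (j : ℕ) : GG := CG.el (gn j)

theorem R_x {j : ℕ} (hj : j < 17) : CG.R (gn j) (x j) :=
  CG.R_el (H78.MRu.tb_tab.exists CG (22 + j) (by omega))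

theorem R_iv {j : ℕ} (hj : j < 17) : CG.R (iv j) (x j)⁻¹ := by
  have h1 := CG.R_pow (R_x hj) 47
  rw [beq_iff.mp (of_allB chk_iv hj)] at h1
  have h2 := CG.eq_of_eqB (CG.R_mul (R_x hj) h1) CG.R_one (of_allB chk_iv' hj)
  rwa [eq_inv_of_mul_eq_one_right h2] at h1

theorem pcG : H78.MRu.c2.PcG x fun e => x (14 + e) :=
  have hx : ∀ j < H78.MRu.c2.n, CG.R (gn j) (x j) := fun j hj => R_x (lt_trans hj (by decide))
  Cert.pcG_of_relChk CG hx (fun e he => R_x (j := 14 + e) (by have : e < 3 := he; omega))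
    chk_let chk_rel (Cert.ne_of_neChk CG QV H78.MRu.ok_vec (fun h1 h2 => P_act _ _ _ _ h1 h2) hx chk_ne)

theorem pcMod : PcMod x ⊥ 1 14 where
  central := fun t ht g => by rw [mem_bot.mp ht, one_mul, mul_one]
  pow := fun i hi => by
    have := pcG.pow i hi
    rw [show x i ^ (1 + 1) = _ from this]
    exact ev_mem_pcC (pcG.letters i i le_rfl hi)
  conj := fun i j hij hj => by
    rw [mul_assoc, pcG.conj i j hij hj, inv_mul_cancel_left]
    exact ev_mem_pcC (pcG.letters i j hij.le hj)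

/-- The terms of the polycyclic series. -/
noncomputable def P (k : ℕ) : Subgroup GG := pcC x ⊥ 14 k

theorem nf {k : ℕ} (hk : k < 14) {c : GG} (hc : c ∈ P k) :
    c ∈ P (k + 1) ∨ ∃ c' ∈ P (k + 1), c = x k * c' := by
  obtain ⟨e, c', h1, rfl⟩ := pcMod.normal_form hk hc
  have h2 : (x k ^ (1 + 1)) ^ (e / 2) * c' ∈ P (k + 1) := mul_mem (pow_mem (pcMod.pow k hk) _) h1
  rw [← pow_mul] at h2
  rcases Nat.mod_two_eq_zero_or_one e with h | h
  · left
    rwa [show (1 + 1) * (e / 2) = e by omega] at h2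
  · refine Or.inr ⟨_, h2, ?_⟩
    rw [← mul_assoc, ← pow_succ', show (1 + 1) * (e / 2) + 1 = e by omega]

theorem pow_P (d : ℕ) (hd : d ≤ 14) : ∀ c ∈ P (14 - d), c ^ 2 ^ d = 1 := by
  induction d with
  | zero => intro c hc; rw [Nat.sub_zero, P, pcC_top, mem_bot] at hc; rw [hc, one_pow]
  | succ d ih =>
    intro c hc
    rw [pow_succ', pow_mul]
    refine ih (by omega) _ ?_
    rw [show 14 - d = 14 - (d + 1) + 1 by omega]
    rcases nf (by omega) hc with h | ⟨c', h, rfl⟩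
    · exact pow_mem h 2
    · generalize hk : 14 - (d + 1) = k at h
      have : (x k * c') ^ 2 = x k ^ (1 + 1) * ((x k)⁻¹ * c' * x k) * c' := by
        rw [pow_two, pow_succ, pow_one]; group
      rw [this]
      exact mul_mem (mul_mem (pcMod.pow k (by omega)) (pcMod.conj_mem h)) h

theorem pg : IsPGroup 2 (P 0) := fun c => ⟨14, Subtype.ext (pow_P 14 le_rfl c.1 c.2)⟩

theorem P_eq : P 0 = closure (x '' Set.Ico 0 14) := sup_bot_eq _

theorem odd_index : ¬ 2 ∣ (P 0).index := by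
  have h1 : 2 ^ 14 ∣ Nat.card (P 0) := by rw [P_eq]; exact pcG.pow_dvd_card (by show Nat.Prime 2; norm_num)
  have h2 := (P 0).card_mul_index
  rw [card_GG] at h2
  intro h
  have := Nat.mul_dvd_mul h1 h
  rw [h2] at this
  norm_num at this

/-- The central involution. -/
noncomputable def t : GG := x 11

theorem R_t : CG.R ct t := beq_iff.mp chk_c.1 ▸ R_x (j := 11) (by norm_num)

/-- An involution of the second class. -/
noncomputable def b : GG := CG.el cb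

theorem R_b : CG.R cb b := CG.R_el (by
  rw [← beq_iff.mp chk_c.2.2.2.2.2.2]
  exact ⟨_, CG.R_word (g := x) _ fun j hj => R_x (by simp at hj; omega)⟩)

theorem R_eq {a a' : ℕ} {g h : GG} (h1 : CG.R a g) (h2 : CG.R a' h) :
    Nat.beq a a' = true ↔ g = h := CG.eqB_iff h1 h2

theorem t_sq : t * t = 1 := (R_eq (CG.R_mul R_t R_t) CG.R_one).mp chk_c.2.2.2.1

theorem t_ne : t ≠ 1 := fun h => by
  have := (R_eq R_t CG.R_one).mpr h
  rw [chk_c.2.2.2.2.1] at this
  exact absurd this (by simp)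

theorem R_mv (j : ℕ) {a : ℕ} {g : GG} (h : CG.R a g) :
    CG.R (mv j a) (x (j % 17) * g * (x (j % 17))⁻¹) :=
  CG.R_mul (CG.R_mul (R_x (Nat.mod_lt _ (by norm_num))) h) (R_iv (Nat.mod_lt _ (by norm_num)))

theorem tree_spec {r : ℕ} {g : GG} (h : CG.R r g) (d i : ℕ) {a : ℕ} {k : GG} (ha : CG.R a k)
    (e : Nat.beq (tree r d i) a = true) : IsConj g k := by
  obtain ⟨k', h1, h2⟩ : ∃ k', CG.R (tree r d i) k' ∧ IsConj g k' :=
    tabT_induction _ _ _ (fun v => ∃ k', CG.R v k' ∧ IsConj g k') ⟨g, h, IsConj.refl g⟩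
      (fun j _ ⟨_, h1, h2⟩ => ⟨_, R_mv j h1, h2.trans (isConj_iff.mpr ⟨_, rfl⟩)⟩) i
  rwa [← (R_eq h1 ha).mp e]

/-- What is checked for the elements of the Sylow subgroup. -/
def Sp (g : GG) : Prop := (g * g = 1 → g = 1 ∨ IsConj t g ∨ IsConj b g) ∧
  (g * g * (g * g) = 1 → g * g = 1 ∨ IsConj t (g * g)) ∧
  (g * g = t → x 0 * g * (x 0)⁻¹ * g ≠ 1 ∧ x 0 * g * (x 0)⁻¹ * g ≠ t)

theorem chk_spec {a : ℕ} {g : GG} (h : CG.R a g) (hc : chk a = true) : Sp g := by
  have hs := CG.R_mul h h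
  rw [chk, frc_eq, iteB_eq] at hc
  split_ifs at hc with h1
  · have e := (R_eq hs CG.R_one).mp h1
    refine ⟨fun _ => ?_, fun _ => Or.inl e, fun h2 => absurd (h2.symm.trans e) t_ne⟩
    rcases orB_iff.mp hc with h2 | h2
    · exact Or.inl ((R_eq h CG.R_one).mp h2)
    · rw [frc_eq, iteB_eq] at h2
      split_ifs at h2
      · exact Or.inr (Or.inr (tree_spec R_b _ _ h h2))
      · exact Or.inr (Or.inl (tree_spec R_t _ _ h h2))
  · have e : g * g ≠ 1 := fun e => h1 ((R_eq hs CG.R_one).mpr e)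
    have k : g * g * (g * g) = 1 → _ := fun h2 => (orB_iff.mp hc).resolve_left (by
      rw [(R_eq (CG.R_mul hs hs) CG.R_one).mpr h2]; simp [notB])
    refine ⟨fun h2 => absurd h2 e, fun h2 => Or.inr (tree_spec R_t _ _ hs (andB_iff.mp (k h2)).1),
      fun h2 => ?_⟩
    have h3 := (orB_iff.mp (andB_iff.mp (k (by rw [h2, t_sq]))).2).resolve_left (by
      rw [(R_eq hs R_t).mpr h2]; simp [notB])
    rw [frc_eq] at h3
    obtain ⟨h3, h4⟩ := andB_iff.mp h3
    have hw := CG.R_mul (R_mv 0 h) h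
    exact ⟨fun e => by rw [(R_eq hw CG.R_one).mpr e] at h3; simp [notB] at h3,
      fun e => by rw [(R_eq hw R_t).mpr e] at h4; simp [notB] at h4⟩

/-- The property holds on a coset. -/
def Gd (d : ℕ) (g : GG) : Prop := ∀ c ∈ P (14 - d), Sp (g * c)

theorem Gd.succ {d : ℕ} (hd : d < 14) {g : GG} (h1 : Gd d g) (h2 : Gd d (g * x (13 - d))) :
    Gd (d + 1) g := fun c hc => by
  have e : 14 - (d + 1) + 1 = 14 - d := by omega
  rcases nf (by omega) hc with h | ⟨c', h, rfl⟩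
  · exact h1 c (e ▸ h)
  · rw [← mul_assoc, show 14 - (d + 1) = 13 - d by omega]
    exact h2 c' (e ▸ h)

theorem allT_spec (d : ℕ) (hd : d ≤ 14) : ∀ {a : ℕ} {g : GG}, CG.R a g → allT d a = true → Gd d g := by
  induction d with
  | zero =>
    intro a g h hc c hc'
    rw [Nat.sub_zero, P, pcC_top, mem_bot] at hc'
    rw [hc', mul_one]
    exact chk_spec h hc
  | succ d ih =>
    intro a g h hc
    obtain ⟨h1, h2⟩ := andB_iff.mp (show andB (allT d a) (allT d (O.mul a (gn (13 - d)))) = true from hc)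
    exact Gd.succ (by omega) (ih (by omega) h h1) (ih (by omega) (CG.R_mul h (R_x (by omega))) h2)

theorem gd_word (l : List ℕ) (hl : ∀ j ∈ l, j < 17) (h : allT 11 (O.word gn l) = true) :
    Gd 11 (l.map x).prod := allT_spec 11 (by norm_num) (CG.R_word _ fun j hj => R_x (hl j hj)) h

theorem sp_of_mem {g : GG} (hg : g ∈ P 0) : Sp g := by
  have h0 := gd_word _ (by simp) all0
  have h1 := gd_word _ (by simp) all1
  have h2 := gd_word _ (by simp) all2
  have h3 := gd_word _ (by simp) all3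
  have h4 := gd_word _ (by simp) all4
  have h5 := gd_word _ (by simp) all5
  have h6 := gd_word _ (by simp) all6
  have h7 := gd_word _ (by simp) all7
  simp only [List.map_cons, List.map_nil, List.prod_cons, List.prod_nil, mul_one, ← mul_assoc]
    at h0 h1 h2 h3 h4 h5 h6 h7
  have k0 : Gd 12 1 := Gd.succ (by norm_num) h0 (by rw [one_mul]; exact h4)
  have k1 : Gd 12 (x 1) := Gd.succ (by norm_num) h2 h6
  have k2 : Gd 12 (x 0) := Gd.succ (by norm_num) h1 h5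
  have k3 : Gd 12 (x 0 * x 1) := Gd.succ (by norm_num) h3 h7
  have k4 : Gd 13 1 := Gd.succ (by norm_num) k0 (by rw [one_mul]; exact k1)
  have k5 : Gd 13 (x 0) := Gd.succ (by norm_num) k2 k3
  have k : Gd 14 1 := Gd.succ (by norm_num) k4 (by rw [one_mul]; exact k5)
  have := k g hg
  rwa [one_mul] at this

theorem conj_P {g : GG} (h : g * g * (g * g) = 1) : ∃ c, c * g * c⁻¹ ∈ P 0 :=
  haveI : Fact (Nat.Prime 2) := ⟨Nat.prime_two⟩
  exists_conj_mem_of_pow _ pg odd_index (k := 2) (by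
    rw [show (2 : ℕ) ^ 2 = 2 + 2 from rfl, pow_add, pow_two, h])

/-- The two classes of involutions. -/
theorem invol {g : GG} (h : g * g = 1) : g = 1 ∨ IsConj t g ∨ IsConj b g := by
  obtain ⟨c, hc⟩ := conj_P (g := g) (by rw [h, one_mul])
  have e : IsConj (c * g * c⁻¹) g := (isConj_iff.mpr ⟨c, rfl⟩).symm
  rcases (sp_of_mem hc).1 (by rw [conj_mul, h, mul_one, mul_inv_cancel]) with h1 | h1 | h1
  · exact Or.inl (conj_eq_one_iff.mp h1)
  · exact Or.inr (Or.inl (h1.trans e))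
  · exact Or.inr (Or.inr (h1.trans e))

/-- Involutions that are squares are in the first class. -/
theorem sq_four {g : GG} (h : g * g * (g * g) = 1) : g * g = 1 ∨ IsConj t (g * g) := by
  obtain ⟨c, hc⟩ := conj_P h
  have := (sp_of_mem hc).2.1 (by simp only [conj_mul]; rw [h, mul_one, mul_inv_cancel])
  rw [conj_mul] at this
  exact this.imp conj_eq_one_iff.mp fun h1 => h1.trans (isConj_iff.mpr ⟨c, rfl⟩).symm

/-- The Sylow subgroup normalises no cyclic subgroup of order four. -/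
theorem no_cyc {g : GG} (h : g * g = t) (hn : ∀ y ∈ P 0, y * g * y⁻¹ * g = 1 ∨ y * g * y⁻¹ * g = t) :
    False := by
  have : Fact (Nat.Prime 2) := ⟨Nat.prime_two⟩
  have hS : H8.IsSylowIn 2 (P 0) ⊤ := ⟨le_top, pg, by rw [relIndex_top_right]; exact odd_index⟩
  have h4 : g ^ 2 ^ 2 = 1 := by
    rw [show (2 : ℕ) ^ 2 = 2 + 2 from rfl, pow_add, pow_two, h, t_sq]
  have hz : IsPGroup 2 (zpowers g) := by
    obtain ⟨j, -, hj⟩ := (Nat.dvd_prime_pow Nat.prime_two).mp (orderOf_dvd_of_pow_eq_one h4)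
    exact IsPGroup.of_card (by rw [Nat.card_zpowers, hj])
  have hle := hS.le_of_le_normalizer hz le_top fun y hy => mem_normalizer_fintype fun w hw => by
    obtain ⟨n, rfl⟩ := mem_zpowers_iff.mp hw
    rw [← conj_zpow]
    refine zpow_mem ?_ n
    rcases hn y hy with e | e
    · rw [eq_inv_of_mul_eq_one_left e]; exact inv_mem (mem_zpowers g)
    · rw [← h] at e; rw [mul_right_cancel e]; exact mem_zpowers g
  have h5 := (sp_of_mem (hle (mem_zpowers g))).2.2 h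
  exact (hn (x 0) (mem_pcC le_rfl (by norm_num))).elim h5.1 h5.2

theorem good_spec {a : ℕ} {g : GG} (h : CG.R a g) (hc : good a = true) : ∃ n, g ^ n = t := by
  have h2 := CG.R_mul h h
  have h4 := CG.R_mul h2 h2
  rw [good, frc_eq] at hc
  rcases orB_iff.mp hc with e | e
  · exact ⟨2, by rw [← (R_eq h2 R_t).mp e, pow_two]⟩
  rw [frc_eq] at e
  rcases orB_iff.mp e with e | e
  · exact ⟨2 + 2, by rw [← (R_eq h4 R_t).mp e, pow_add, pow_two]⟩
  · exact ⟨2 + 2 + (2 + 2), by rw [← (R_eq (CG.R_mul h4 h4) R_t).mp e, pow_add, pow_add, pow_two]⟩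

theorem gen_good {k : ℕ} (hk : k < 14) : ∃ y : GG, (∃ n, y ^ n = t) ∧ ∃ n, (x k * y) ^ n = t := by
  obtain ⟨h1, h2⟩ := andB_iff.mp (of_allB chk_good hk)
  obtain ⟨h2, h3⟩ := andB_iff.mp h2
  have hw := CG.R_word (g := x) (getLL yw k) fun j hj =>
    R_x (lt_trans (ltB_iff.mp (allL_iff.mp h1 j hj)) (by norm_num))
  exact ⟨_, good_spec hw h2, good_spec (CG.R_mul (R_x (by omega)) hw) h3⟩

/-! ### The lattice -/

theorem exists_aut' {X A g : ℕ} (h : autB X A g = true) :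
    ∃ f : fourRu, CG.R g (piG f) ∧ herB A = true ∧ ∀ k, (f.1 (bL k) : RuVec) = rowv A (ix k) := by
  obtain ⟨h1, h⟩ := andB_iff.mp h
  obtain ⟨h2, h⟩ := andB_iff.mp h
  obtain ⟨h3, h⟩ := andB_iff.mp h
  obtain ⟨h4, h⟩ := andB_iff.mp h
  obtain ⟨h5, h6⟩ := andB_iff.mp h
  have hc : Canon 17 9 (56 * 28) X := canon_of_canonB (andB_iff.mp h1).1
  obtain ⟨f, hf⟩ := exists_aut (v := fun k => dec (col X (ix k)))
    (fun k => inL_of_inLB h1 (ix_lt k)) fun k l => by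
      obtain ⟨e1, e2⟩ := herm_sg h2 hc (ix_lt l) (ix_lt k)
      obtain ⟨e3, e4⟩ := herm_sg her_AB canon_Bc (ix_lt l) (ix_lt k)
      rw [beq_iff.mp h4] at e1 e2
      rw [eq_of_veq (of_allB h3 (ix_lt l)), bv_eq_rowv l, bv]
      exact Zsqrtd.ext (by omega) (by omega)
  refine ⟨f, ⟨canon_of_canonB h5, ?_⟩, h2, fun k => (hf k).trans (eq_of_veq (of_allB h3 (ix_lt k)))⟩
  show decM (fun a : ℕ => (a : ZMod 2)) 1 eI g = (rho f : Matrix RuIdx RuIdx (ZMod 2))
  ext j k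
  rw [rho_apply, hf, red_apply]
  have h0 := of_frc h6
  beta_reduce at h0
  have h7 := beq_iff.mp (of_allB (of_allB h0 (ix_lt k)) (ix_lt j))
  rw [ln_eq, ln_eq] at h7
  obtain ⟨e1, e2⟩ := herm_sg her_AD hc (ix_lt j) (ix_lt k)
  obtain ⟨e3, e4⟩ := (four_dvd_iff _).mp (inL_of_inLB h1 (ix_lt k) j)
  show ((lane 1 g (28 * ix k + ix j) : ℕ) : ZMod 2) = _
  rw [← h7, ← Int.cast_natCast, ZMod.intCast_eq_intCast_iff']
  unfold co dv at *
  push_cast
  omega

/-- The vectors used. -/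
noncomputable def L (a : Fin 20) : ruLattice :=
  ⟨dec (col (vs a) 0), mem_iff.mpr (inL_of_inLB (of_allB chk_vs a.2) Nat.one_pos)⟩

theorem L_val (a : Fin 20) (n : ℕ) (h : a.1 = n) : (L a).1 = dec (col (vs n) 0) := h ▸ rfl

theorem step {f : fourRu} {A : ℕ} (hA : herB A = true)
    (hf : ∀ k, (f.1 (bL k) : RuVec) = rowv A (ix k)) {l : List (ℕ × ℕ)}
    (h : allL (fun p : ℕ × ℕ => stepB A p.1 p.2) l = true) (a b : Fin 20) (hm : (a.1, b.1) ∈ l) :
    f.1 (L a) = L b := by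
  have h0 := allL_iff.mp h _ hm
  dsimp only [stepB] at h0
  have h1 := beq_iff.mp h0
  have ca : Canon 17 9 (56 * 1) (vs a) := canon_of_canonB (andB_iff.mp (of_allB chk_vs a.2)).1
  have cb : Canon 17 9 (56 * 1) (vs b) := canon_of_canonB (andB_iff.mp (of_allB chk_vs b.2)).1
  obtain ⟨y, hy⟩ := f.1.surjective (L b)
  have key : ∀ k, herm (L a).1 (bv k) = herm y.1 (bv k) := fun k => by
    have e := herm_apply f y (bL k)
    rw [hy, hf, L_val b _ rfl] at e
    obtain ⟨e1, e2⟩ := herm_sg hA cb (ix_lt k) Nat.one_pos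
    obtain ⟨e3, e4⟩ := herm_sg her_AB ca (ix_lt k) Nat.one_pos
    rw [h1, e] at e1 e2
    rw [← bv_eq_rowv k, ← L_val a _ rfl] at e3 e4
    exact Zsqrtd.ext (by show _ = (herm y.1 (bL k).1).re; omega) (by show _ = (herm y.1 (bL k).1).im; omega)
  rw [← hy, show L a = y from Subtype.ext (eq_of_herm_bv (L a).2 y.2 key)]

theorem scalar {s : fourRu} (hs : piG s = 1) : ∃ n : ℕ, s = sI ^ n := by
  have h : s ∈ zpowers sI := by rw [← ker_rho, ← ker_piG]; exact hs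
  obtain ⟨n, hn⟩ := (mem_powers_iff_mem_zpowers).mpr h
  exact ⟨n, hn.symm⟩

theorem scalar_four {s : fourRu} (hs : piG s = 1) : s ^ 4 = 1 := by
  obtain ⟨n, rfl⟩ := scalar hs
  rw [← pow_mul, mul_comm, pow_mul, ← orderOf_sI, pow_orderOf_eq_one, one_pow]

theorem eq_one_of_fix {s : fourRu} (hs : piG s = 1) (h : s.1 (L 0) = L 0) : s = 1 := by
  obtain ⟨n, rfl⟩ := scalar hs
  have h1 := sI_pow n (L 0)
  rw [h] at h1
  have h2 : (gI ^ n - 1) • (L 0).1 = 0 := by rw [sub_smul, one_smul]; exact sub_eq_zero.mpr h1.symm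
  rcases smul_eq_zero.mp h2 with h3 | h3
  · exact eq_of_basis fun k => Subtype.ext (by rw [sI_pow, sub_eq_zero.mp h3, one_smul]; rfl)
  · rw [L_val 0 0 rfl] at h3
    exact (chk_nz (by rw [h3]; rfl)).elim

theorem four_facts : ∃ f0 f1 f2 : fourRu, piG f0 ^ 4 = t ∧ piG f1 ^ 4 = t ∧
    piG (f0 * f2 * f0 * f2⁻¹) = b ∧ f0 ^ 4 * f0 ^ 4 = 1 ∧ f0 ^ 4 ≠ f1 ^ 4 ∧
    f0 * f2 * f0 * f2⁻¹ * (f0 * f2 * f0 * f2⁻¹) ≠ 1 := by
  obtain ⟨f0, r0, a0, k0⟩ := exists_aut' aut0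
  obtain ⟨f1, r1, a1, k1⟩ := exists_aut' aut1
  obtain ⟨f2, r2, a2, k2⟩ := exists_aut' aut2
  have s0 := step a0 k0 st0
  have s1 := step a1 k1 st1
  have s2 := step a2 k2 st2
  have s2' : ∀ a b : Fin 20, (a.1, b.1) ∈ _ → (f2⁻¹).1 (L b) = L a := fun a b h => by
    rw [← s2 a b h]; exact f2.1.symm_apply_apply _
  have p4 : ∀ (f : fourRu) v, (f ^ 4).1 v = f.1 (f.1 (f.1 (f.1 v))) := fun f v => by
    simp only [pow_succ, pow_zero, one_mul]; rfl
  have e0 := (R_eq (CG.R_pow r0 4) R_t).mp chk_c.2.1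
  have q0 : (f0 ^ 4).1 (L 0) = L 4 := by
    rw [p4, s0 0 1 (by simp), s0 1 2 (by simp), s0 2 3 (by simp), s0 3 4 (by simp)]
  refine ⟨f0, f1, f2, e0, (R_eq (CG.R_pow r1 4) R_t).mp chk_c.2.2.1, ?_, eq_one_of_fix ?_ ?_,
    fun e => chk_ne4 ?_, fun e => chk_ne0 ?_⟩
  · rw [map_mul, map_mul, map_mul, map_inv, mul_inv_eq_iff_eq_mul]
    exact (R_eq (CG.R_mul (CG.R_mul r0 r2) r0) (CG.R_mul R_b r2)).mp chk_c.2.2.2.2.2.1
  · rw [map_mul, map_pow, e0, t_sq]
  · show (f0 ^ 4).1 ((f0 ^ 4).1 (L 0)) = L 0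
    rw [q0, p4, s0 4 5 (by simp), s0 5 6 (by simp), s0 6 7 (by simp), s0 7 0 (by simp)]
  · rw [e, p4, s1 0 8 (by simp), s1 8 9 (by simp), s1 9 10 (by simp), s1 10 11 (by simp)] at q0
    rw [← L_val 4 4 rfl, ← L_val 11 11 rfl, q0]
  · have h : f0.1 (f2.1 (f0.1 ((f2⁻¹).1 (f0.1 (f2.1 (f0.1 ((f2⁻¹).1 (L 0)))))))) = L 0 :=
      congrArg (fun f : fourRu => f.1 (L 0)) e
    rw [s2' 12 0 (by simp), s0 12 13 (by simp), s2 13 14 (by simp), s0 14 15 (by simp),
      s2' 16 15 (by simp), s0 16 17 (by simp), s2 17 18 (by simp), s0 18 19 (by simp)] at h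
    rw [← L_val 19 19 rfl, ← L_val 0 0 rfl, h]

end Cfsg.Agent.H41.Ru2
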